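import Mathlib

/-!
# Leading coefficients of a twisted polynomial submodule

`S` an additive subgroup of a finite ring `E`, `u`, `v` one-sided invertible polynomials: the leading coefficients of the
polynomials `u f v`, `f ∈ S[X]`, form an additive subgroup `lead u v S` with at least as many elements as `S`.
-/

set_option autoImplicit false

namespace Cfsg.Agent.H26.Limit

open Polynomial

section Count

variable {E : Type*} [AddCommGroup E]

/-- Counting a finite additive group of finitely supported sequences by leading terms. -/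
theorem count (L : AddSubgroup E) [Finite L] (K : ℕ) : ∀ (P : Type*) [AddCommGroup P] [Finite P]
    (φ : P →+ (ℕ → E)), Function.Injective φ → (∀ f k, K ≤ k → φ f k = 0) →
    (∀ f k, (∀ j, k < j → φ f j = 0) → φ f k ∈ L) → Nat.card P ≤ Nat.card L ^ K := by
  induction K with
  | zero =>
    intro P _ _ φ hφ hK _
    have : Subsingleton P := by
      constructor
      intro a b
      apply hφ
      funext k
      rw [hK a k (Nat.zero_le _), hK b k (Nat.zero_le _)]
    rw [pow_zero]
    exact Finite.card_le_one_iff_subsingleton.2 this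
  | succ K ih =>
    intro P _ _ φ hφ hK hL
    let g : P →+ L :=
      { toFun := fun f => ⟨φ f K, hL f K (fun j hj => hK f j hj)⟩
        map_zero' := by simp
        map_add' := by intro a b; simp }
    have h1 : Nat.card P = Nat.card g.range * Nat.card g.ker := by
      rw [← AddSubgroup.index_ker g, mul_comm]
      exact (AddSubgroup.card_mul_index g.ker).symm
    have h2 : Nat.card g.ker ≤ Nat.card L ^ K := by
      refine ih g.ker (φ.comp g.ker.subtype) (hφ.comp Subtype.val_injective) ?_ ?_
      · rintro ⟨f, hf⟩ k hk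
        rcases hk.lt_or_eq with h | h
        · exact hK f k h
        · subst h
          exact congrArg Subtype.val hf
      · rintro ⟨f, hf⟩ k hk
        exact hL f k hk
    have h3 : Nat.card g.range ≤ Nat.card L := AddSubgroup.card_le_card_addGroup g.range
    rw [h1, pow_succ, mul_comm]
    exact Nat.mul_le_mul h2 h3

theorem le_of_pow_le {s l c : ℕ} (hl : 0 < l) (h : ∀ N : ℕ, s ^ (N + 1) ≤ l ^ (N + c)) : s ≤ l := by
  by_contra hcon
  push Not at hcon
  -- `(l + 1) ^ n ≥ l ^ n + n * l ^ (n - 1)`
  have h1 : ∀ n : ℕ, l ^ (n + 1) + (n + 1) * l ^ n ≤ (l + 1) ^ (n + 1) := by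
    intro n
    induction n with
    | zero => simp
    | succ n ih =>
      calc l ^ (n + 1 + 1) + (n + 1 + 1) * l ^ (n + 1)
          ≤ (l ^ (n + 1) + (n + 1) * l ^ n) * (l + 1) := by
            have : (l ^ (n + 1) + (n + 1) * l ^ n) * (l + 1) =
              l ^ (n + 1 + 1) + (n + 1 + 1) * l ^ (n + 1) + (n + 1) * l ^ n := by ring
            rw [this]; exact Nat.le_add_right _ _
        _ ≤ (l + 1) ^ (n + 1) * (l + 1) := Nat.mul_le_mul_right _ ih
        _ = _ := (pow_succ _ _).symm
  set N := l ^ c with hN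
  have h2 := h N
  have h3 := h1 N
  have h4 : (l + 1) ^ (N + 1) ≤ s ^ (N + 1) := Nat.pow_le_pow_left hcon _
  have h5 : l ^ (N + 1) + (N + 1) * l ^ N ≤ l ^ (N + c) := h3.trans (h4.trans h2)
  have h6 : l ^ (N + c) = N * l ^ N := by rw [pow_add, ← hN, mul_comm]
  rw [h6] at h5
  have h7 : 0 < l ^ N := pow_pos hl _
  rw [add_mul, one_mul] at h5
  generalize N * l ^ N = a at h5
  generalize l ^ (N + 1) = b at h5
  omega

end Count

section Lead

variable {E : Type*} [Ring E]

/-- Leading coefficients of the polynomials `u * f * v`, `f` with coefficients in `S`. -/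
def lead (u v : E[X]) (S : AddSubgroup E) : AddSubgroup E where
  carrier := {x | ∃ f : E[X], (∀ k, f.coeff k ∈ S) ∧ ∃ k, (∀ j, k < j → (u * f * v).coeff j = 0) ∧
    (u * f * v).coeff k = x}
  zero_mem' := ⟨0, by simp, 0, by simp, by simp⟩
  neg_mem' := by
    rintro x ⟨f, hf, k, hk, rfl⟩
    refine ⟨-f, fun j => by simpa using hf j, k, fun j hj => ?_, ?_⟩
    · rw [mul_neg, neg_mul, coeff_neg, hk j hj, neg_zero]
    · rw [mul_neg, neg_mul, coeff_neg]
  add_mem' := by
    rintro x y ⟨f, hf, k, hk, rfl⟩ ⟨g, hg, l, hl, rfl⟩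
    have key : ∀ n : ℕ, ∀ f : E[X], (∀ k, f.coeff k ∈ S) → (∀ k, (f * X ^ n).coeff k ∈ S) := by
      intro n f hf k
      rw [coeff_mul_X_pow']
      split_ifs with h
      · exact hf _
      · exact S.zero_mem
    have hX : ∀ (n : ℕ) (f : E[X]), u * (f * X ^ n) * v = u * f * v * X ^ n := by
      intro n f
      rw [← mul_assoc, mul_assoc (u * f) (X ^ n) v, X_pow_mul, ← mul_assoc]
    refine ⟨f * X ^ l + g * X ^ k, fun j => ?_, k + l, fun j hj => ?_, ?_⟩
    · rw [coeff_add]
      exact S.add_mem (key l f hf j) (key k g hg j)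
    · rw [mul_add, add_mul, coeff_add, hX, hX, coeff_mul_X_pow', coeff_mul_X_pow',
        if_pos (by omega), if_pos (by omega), hk _ (by omega), hl _ (by omega), add_zero]
    · rw [mul_add, add_mul, coeff_add, hX, hX, coeff_mul_X_pow', coeff_mul_X_pow',
        if_pos (by omega), if_pos (by omega)]
      congr 2 <;> omega

theorem mem_lead {u v : E[X]} {S : AddSubgroup E} {x : E} : x ∈ lead u v S ↔
    ∃ f : E[X], (∀ k, f.coeff k ∈ S) ∧ ∃ k, (∀ j, k < j → (u * f * v).coeff j = 0) ∧
    (u * f * v).coeff k = x := Iff.rfl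

theorem card_le_lead [Finite E] {u v u' v' : E[X]} (hu : u' * u = 1) (hv : v * v' = 1)
    (hud : u.natDegree ≤ 1) (hvd : v.natDegree ≤ 1) (S : AddSubgroup E) :
    Nat.card S ≤ Nat.card (lead u v S) := by
  refine le_of_pow_le (c := 3) Nat.card_pos fun N => ?_
  let ι : (Fin (N + 1) → S) →+ E[X] :=
    { toFun := fun s => ∑ i : Fin (N + 1), monomial (i : ℕ) (s i : E)
      map_zero' := by simp
      map_add' := by
        intro s t
        simp [Finset.sum_add_distrib] }
  have hι : ∀ s (i : Fin (N + 1)), (ι s).coeff i = s i := by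
    intro s i
    change (∑ j : Fin (N + 1), monomial (j : ℕ) (s j : E)).coeff i = _
    rw [finsetSum_coeff]
    rw [Finset.sum_eq_single i]
    · rw [coeff_monomial, if_pos rfl]
    · intro j _ hj
      rw [coeff_monomial, if_neg (fun h => hj (Fin.ext h))]
    · intro h; exact absurd (Finset.mem_univ i) h
  have hιS : ∀ s k, (ι s).coeff k ∈ S := by
    intro s k
    change (∑ j : Fin (N + 1), monomial (j : ℕ) (s j : E)).coeff k ∈ _
    rw [finsetSum_coeff]
    refine S.sum_mem fun j _ => ?_
    rw [coeff_monomial]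
    split_ifs
    · exact (s j).2
    · exact S.zero_mem
  have hιd : ∀ s, (ι s).natDegree ≤ N := by
    intro s
    refine natDegree_sum_le_of_forall_le (Finset.univ : Finset (Fin (N + 1)))
      (fun i => monomial (i : ℕ) (s i : E)) fun i _ => ?_
    exact (natDegree_monomial_le _).trans (Nat.lt_succ_iff.1 i.2)
  let φ : (Fin (N + 1) → S) →+ (ℕ → E) :=
    { toFun := fun s k => (u * ι s * v).coeff k
      map_zero' := by funext k; simp
      map_add' := by
        intro s t
        funext k
        simp [mul_add, add_mul] }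
  have hcount := count (lead u v S) (N + 3) (Fin (N + 1) → S) φ ?_ ?_ ?_
  · have h1 : Nat.card (Fin (N + 1) → S) = Nat.card S ^ (N + 1) := by
      rw [Nat.card_fun, Nat.card_eq_fintype_card (α := Fin (N + 1)), Fintype.card_fin]
    rwa [h1] at hcount
  · intro s t hst
    have h1 : u * ι s * v = u * ι t * v := by
      ext k
      exact congrFun hst k
    have h2 : ι s = ι t := by
      have h3 : ∀ w : E[X], u' * (u * w * v) * v' = w := by
        intro w
        calc u' * (u * w * v) * v' = (u' * u) * w * (v * v') := by simp only [mul_assoc]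
          _ = w := by rw [hu, hv, one_mul, mul_one]
      rw [← h3 (ι s), h1, h3]
    funext i
    apply Subtype.ext
    rw [← hι s i, h2, hι]
  · intro s k hk
    change (u * ι s * v).coeff k = 0
    apply coeff_eq_zero_of_natDegree_lt
    calc (u * ι s * v).natDegree ≤ (u * ι s).natDegree + v.natDegree := natDegree_mul_le
      _ ≤ (u.natDegree + (ι s).natDegree) + v.natDegree := Nat.add_le_add_right natDegree_mul_le _
      _ ≤ 1 + N + 1 := Nat.add_le_add (Nat.add_le_add hud (hιd s)) hvd
      _ < k := by omega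
  · intro s k hk
    exact ⟨ι s, hιS s, k, hk, rfl⟩

/-- Products of leading coefficients. -/
theorem lead_mul_eq_zero {u v u₂ v₂ : E[X]} (huv : v * u₂ = 1) {S S₂ : AddSubgroup E}
    (h0 : ∀ x ∈ S, ∀ y ∈ S₂, x * y = 0) {x y : E} (hx : x ∈ lead u v S) (hy : y ∈ lead u₂ v₂ S₂) :
    x * y = 0 := by
  obtain ⟨f, hf, k, hk, rfl⟩ := hx
  obtain ⟨g, hg, l, hl, rfl⟩ := hy
  have hfg : f * g = 0 := by
    ext n
    rw [coeff_mul, coeff_zero]
    refine Finset.sum_eq_zero fun i _ => h0 _ (hf _) _ (hg _)
  have h1 : (u * f * v) * (u₂ * g * v₂) = 0 := by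
    calc (u * f * v) * (u₂ * g * v₂) = u * f * (v * u₂) * g * v₂ := by simp only [mul_assoc]
      _ = u * (f * g) * v₂ := by rw [huv, mul_one]; simp only [mul_assoc]
      _ = 0 := by rw [hfg, mul_zero, zero_mul]
  have h2 : ((u * f * v) * (u₂ * g * v₂)).coeff (k + l) = (u * f * v).coeff k * (u₂ * g * v₂).coeff l := by
    apply coeff_mul_add_eq_of_natDegree_le
    · exact natDegree_le_iff_coeff_eq_zero.2 hk
    · exact natDegree_le_iff_coeff_eq_zero.2 hl
  rw [← h2, h1, coeff_zero]

end Lead

end Cfsg.Agent.H26.Limit
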