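import Cfsg.Agent.H26.LimitMain

/-!
# Fixed points of the limit subgroup
-/

set_option autoImplicit false

namespace Cfsg.Agent.H26.Limit

open Polynomial

variable {p : ℕ} [hpf : Fact p.Prime] {W : Type*} [AddCommGroup W] [Module (ZMod p) W]

/-- Vectors killed by `S`. -/
def ker (S : AddSubgroup (Module.End (ZMod p) W)) : AddSubgroup W where
  carrier := {w | ∀ x ∈ S, x w = 0}
  zero_mem' := by intro x _; simp
  add_mem' := by
    intro a b ha hb x hx
    rw [map_add, ha x hx, hb x hx, add_zero]
  neg_mem' := by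
    intro a ha x hx
    rw [map_neg, ha x hx, neg_zero]

/-- **Fixed points** do not shrink. -/
theorem card_ker_le [Finite W] {m : Module.End (ZMod p) W} (hm : m * m = 0)
    (S : AddSubgroup (Module.End (ZMod p) W)) :
    Nat.card (ker S) ≤ Nat.card (ker (lead (up m) (dn m) S)) := by
  have hfinE : Finite (Module.End (ZMod p) W) :=
    Finite.of_injective (fun f : Module.End (ZMod p) W => (f : W → W)) DFunLike.coe_injective
  rcases subsingleton_or_nontrivial W with hW | hW
  · have h1 : Nat.card (ker S) ≤ 1 := Finite.card_le_one_iff_subsingleton.2 inferInstance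
    exact h1.trans Nat.card_pos
  obtain ⟨w₀, hw₀⟩ := exists_ne (0 : W)
  obtain ⟨l, hl⟩ := Module.Projective.exists_dual_eq_one (ZMod p) hw₀
  -- rank one operators
  let r : W →+ Module.End (ZMod p) W :=
    { toFun := fun w => LinearMap.smulRight l w
      map_zero' := by ext; simp
      map_add' := by intro a b; ext; simp }
  have hr : ∀ w v, r w v = l v • w := fun w v => rfl
  have hr0 : ∀ w, r w w₀ = w := by intro w; rw [hr, hl, one_smul]
  have hri : Function.Injective r := by
    intro a b hab
    rw [← hr0 a, hab, hr0]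
  set S₂ : AddSubgroup (Module.End (ZMod p) W) := (ker S).map r with hS₂
  have h1 : Nat.card (ker S) = Nat.card S₂ := by
    rw [hS₂]
    exact (Nat.card_congr ((ker S).equivMapOfInjective r hri).toEquiv)
  have h2 : Nat.card S₂ ≤ Nat.card (lead (up m) 1 S₂) :=
    card_le_lead (v' := 1) (dn_mul_up hm) (one_mul 1) (natDegree_up m) (by simp) _
  have hrange : ∀ y ∈ lead (up m) 1 S₂, ∃ w, r w = y := by
    rintro y ⟨f, hf, k, -, rfl⟩
    have h3 : ∀ k, ∃ w, r w = (up m * f).coeff k := by
      intro k
      have h4 : (up m * f).coeff k = f.coeff k + (monomial 1 m * f).coeff k := by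
        rw [up, add_mul, one_mul, coeff_add]
      obtain ⟨w, -, hw⟩ := hf k
      rcases k with _ | k
      · refine ⟨w, ?_⟩
        rw [h4, ← C_mul_X_eq_monomial, mul_assoc, coeff_C_mul, mul_coeff_zero]
        simpa using hw
      · obtain ⟨w', -, hw'⟩ := hf k
        refine ⟨w + m w', ?_⟩
        rw [h4, ← C_mul_X_eq_monomial, mul_assoc, coeff_C_mul, coeff_X_mul, map_add, hw, ← hw']
        congr 1
        ext v
        rw [Module.End.mul_apply, hr, hr, map_smul]
    rw [mul_one]
    exact h3 k
  have h5 : Nat.card (lead (up m) 1 S₂) ≤ Nat.card (ker (lead (up m) (dn m) S)) := by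
    refine Nat.card_le_card_of_injective (fun y => ⟨y.1 w₀, ?_⟩) ?_
    · intro x hx
      have h6 : x * y.1 = 0 := by
        refine lead_mul_eq_zero (u₂ := up m) (dn_mul_up hm) ?_ hx y.2
        rintro a ha _ ⟨w, hw, rfl⟩
        ext v
        rw [Module.End.mul_apply, hr, map_smul, hw a ha, smul_zero]; rfl
      rw [← Module.End.mul_apply, h6]; rfl
    · intro y z hyz
      have h6 : y.1 w₀ = z.1 w₀ := congrArg Subtype.val hyz
      obtain ⟨a, ha⟩ := hrange y.1 y.2
      obtain ⟨b, hb⟩ := hrange z.1 z.2
      apply Subtype.ext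
      rw [← ha, ← hb] at h6 ⊢
      rw [hr0, hr0] at h6
      rw [h6]
  rw [h1]
  exact h2.trans h5

end Cfsg.Agent.H26.Limit
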