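import Cfsg.Agent.H26.LimitTheta

/-!
# The limit subgroup
-/

set_option autoImplicit false

namespace Cfsg.Agent.H26.Limit

open Polynomial

section Nil

variable {G : Type*} [Group G] {E : Type*} [Ring E] (ρ : G →* E)

/-- Quadratic subgroups. -/
def Quad (A : Subgroup G) : Prop := ∀ a ∈ A, ∀ b ∈ A, (ρ a - 1) * (ρ b - 1) = 0

variable {ρ}

/-- The additive group `{ρ a - 1}` of a quadratic subgroup. -/
def nil {A : Subgroup G} (hA : Quad ρ A) : AddSubgroup E where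
  carrier := {x | ∃ a ∈ A, ρ a = 1 + x}
  zero_mem' := ⟨1, A.one_mem, by simp⟩
  add_mem' := by
    rintro x y ⟨a, ha, hax⟩ ⟨b, hb, hby⟩
    refine ⟨a * b, A.mul_mem ha hb, ?_⟩
    have h := hA a ha b hb
    rw [hax, hby, add_sub_cancel_left, add_sub_cancel_left] at h
    rw [map_mul, hax, hby]
    linear_combination (norm := noncomm_ring) h
  neg_mem' := by
    rintro x ⟨a, ha, hax⟩
    refine ⟨a⁻¹, A.inv_mem ha, ?_⟩
    have h := hA a ha a ha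
    rw [hax, add_sub_cancel_left] at h
    have h1 : ρ a⁻¹ * ρ a = 1 := by rw [← map_mul, inv_mul_cancel, map_one]
    have h2 : ρ a * (1 + -x) = 1 := by
      rw [hax]; linear_combination (norm := noncomm_ring) (-1 : E) * h
    calc ρ a⁻¹ = ρ a⁻¹ * (ρ a * (1 + -x)) := by rw [h2, mul_one]
      _ = 1 + -x := by rw [← mul_assoc, h1, one_mul]

theorem mem_nil {A : Subgroup G} {hA : Quad ρ A} {x : E} : x ∈ nil hA ↔ ∃ a ∈ A, ρ a = 1 + x := Iff.rfl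

theorem sub_one_mem_nil {A : Subgroup G} (hA : Quad ρ A) {a : G} (ha : a ∈ A) : ρ a - 1 ∈ nil hA :=
  ⟨a, ha, by abel⟩

theorem nil_mul {A : Subgroup G} (hA : Quad ρ A) {x y : E} (hx : x ∈ nil hA) (hy : y ∈ nil hA) :
    x * y = 0 := by
  obtain ⟨a, ha, hax⟩ := hx
  obtain ⟨b, hb, hby⟩ := hy
  have h := hA a ha b hb
  rwa [hax, hby, add_sub_cancel_left, add_sub_cancel_left] at h

theorem card_nil (hρ : Function.Injective ρ) {A : Subgroup G} (hA : Quad ρ A) :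
    Nat.card A = Nat.card (nil hA) := by
  refine Nat.card_congr (Equiv.ofBijective (fun a : A => (⟨ρ a - 1, sub_one_mem_nil hA a.2⟩ : nil hA)) ⟨?_, ?_⟩)
  · intro a b hab
    have h1 : ρ a - 1 = ρ b - 1 := congrArg Subtype.val hab
    exact Subtype.ext (hρ (sub_left_injective h1))
  · rintro ⟨x, a, ha, hax⟩
    refine ⟨⟨a, ha⟩, Subtype.ext ?_⟩
    change ρ a - 1 = x
    rw [hax]; abel

/-- The subgroup `(1 + S) ∩ T`. -/
def grp (ρ : G →* E) (T : Subgroup G) (S : AddSubgroup E) (hS : ∀ x ∈ S, ∀ y ∈ S, x * y = 0) :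
    Subgroup G where
  carrier := {t | t ∈ T ∧ ρ t - 1 ∈ S}
  one_mem' := ⟨T.one_mem, by simp⟩
  mul_mem' := by
    rintro a b ⟨ha, ha'⟩ ⟨hb, hb'⟩
    refine ⟨T.mul_mem ha hb, ?_⟩
    have h := hS _ ha' _ hb'
    have e : ρ (a * b) - 1 = (ρ a - 1) + (ρ b - 1) := by
      rw [map_mul]; linear_combination (norm := noncomm_ring) h
    rw [e]; exact S.add_mem ha' hb'
  inv_mem' := by
    rintro a ⟨ha, ha'⟩
    refine ⟨T.inv_mem ha, ?_⟩
    have h := hS _ ha' _ ha'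
    have h1 : ρ a⁻¹ * ρ a = 1 := by rw [← map_mul, inv_mul_cancel, map_one]
    have h2 : ρ a * (1 - (ρ a - 1)) = 1 := by
      linear_combination (norm := noncomm_ring) (-1 : E) * h
    have e : ρ a⁻¹ - 1 = -(ρ a - 1) := by
      calc ρ a⁻¹ - 1 = ρ a⁻¹ * (ρ a * (1 - (ρ a - 1))) - 1 := by rw [h2, mul_one]
        _ = -(ρ a - 1) := by rw [← mul_assoc, h1, one_mul]; abel
    rw [e]; exact S.neg_mem ha'

theorem mem_grp {T : Subgroup G} {S : AddSubgroup E} {hS : ∀ x ∈ S, ∀ y ∈ S, x * y = 0} {t : G} :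
    t ∈ grp ρ T S hS ↔ t ∈ T ∧ ρ t - 1 ∈ S := Iff.rfl

theorem grp_quad {T : Subgroup G} {S : AddSubgroup E} (hS : ∀ x ∈ S, ∀ y ∈ S, x * y = 0) :
    Quad ρ (grp ρ T S hS) := fun _ ha _ hb => hS _ ha.2 _ hb.2

theorem card_grp (hρ : Function.Injective ρ) {T : Subgroup G} {S : AddSubgroup E}
    (hS : ∀ x ∈ S, ∀ y ∈ S, x * y = 0) (hT : ∀ x ∈ S, ∃ t ∈ T, ρ t = 1 + x) :
    Nat.card (grp ρ T S hS) = Nat.card S := by
  refine Nat.card_congr (Equiv.ofBijective (fun a : grp ρ T S hS => (⟨ρ a - 1, a.2.2⟩ : S)) ⟨?_, ?_⟩)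
  · intro a b hab
    have h1 : ρ a - 1 = ρ b - 1 := congrArg Subtype.val hab
    exact Subtype.ext (hρ (sub_left_injective h1))
  · rintro ⟨x, hx⟩
    obtain ⟨t, ht, htx⟩ := hT x hx
    have h1 : ρ t - 1 = x := by rw [htx]; abel
    refine ⟨⟨t, ht, by rw [h1]; exact hx⟩, Subtype.ext ?_⟩
    exact h1

/-- Conjugation normalises `grp`. -/
theorem conj_mem_grp {T : Subgroup G} {S : AddSubgroup E} {hS : ∀ x ∈ S, ∀ y ∈ S, x * y = 0} {g : G}
    (hgT : ∀ t ∈ T, g * t * g⁻¹ ∈ T) (hgS : ∀ x ∈ S, ρ g * x * ρ g⁻¹ ∈ S) {t : G}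
    (ht : t ∈ grp ρ T S hS) : g * t * g⁻¹ ∈ grp ρ T S hS := by
  refine ⟨hgT t ht.1, ?_⟩
  have h1 := hgS _ ht.2
  have e : ρ (g * t * g⁻¹) - 1 = ρ g * (ρ t - 1) * ρ g⁻¹ := by
    have h2 : ρ g * ρ g⁻¹ = 1 := by rw [← map_mul, mul_inv_cancel, map_one]
    rw [map_mul, map_mul, mul_sub, sub_mul, mul_one, h2]
  rw [e]; exact h1

theorem conj_mem_nil {A : Subgroup G} (hA : Quad ρ A) {g : G} (hg : ∀ a ∈ A, g * a * g⁻¹ ∈ A) {x : E}
    (hx : x ∈ nil hA) : ρ g * x * ρ g⁻¹ ∈ nil hA := by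
  obtain ⟨a, ha, hax⟩ := hx
  refine ⟨_, hg a ha, ?_⟩
  have h2 : ρ g * ρ g⁻¹ = 1 := by rw [← map_mul, mul_inv_cancel, map_one]
  rw [map_mul, map_mul, hax, mul_add, add_mul, mul_one, h2]

end Nil

section Mutual

variable {G : Type*} [Group G] {E : Type*} [Ring E] {ρ : G →* E} {p : ℕ} [hpf : Fact p.Prime]

/-- Inverse of `1 + y`. -/
theorem map_inv_of {b : G} {y : E} (h : ρ b = 1 + y) (hy : y * y = 0) : ρ b⁻¹ = 1 - y := by
  have h1 : ρ b⁻¹ * ρ b = 1 := by rw [← map_mul, inv_mul_cancel, map_one]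
  have h2 : ρ b * (1 - y) = 1 := by
    rw [h]; linear_combination (norm := noncomm_ring) (-1 : E) * hy
  calc ρ b⁻¹ = ρ b⁻¹ * (ρ b * (1 - y)) := by rw [h2, mul_one]
    _ = 1 - y := by rw [← mul_assoc, h1, one_mul]

/-- If `B` normalises `A`, both quadratic, then `[y, x]` and `y x y` lie in the nil group of `A`. -/
theorem mutl (hp2 : p ≠ 2) (hE : ∀ x : E, p • x = 0) {A B : Subgroup G} (hA : Quad ρ A) (hB : Quad ρ B)
    (hBA : ∀ b ∈ B, ∀ a ∈ A, b * a * b⁻¹ ∈ A) {x y : E} (hx : x ∈ nil hA) (hy : y ∈ nil hB) :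
    y * x - x * y ∈ nil hA ∧ y * x * y ∈ nil hA := by
  have key : ∀ y ∈ nil hB, y * x - x * y - y * x * y ∈ nil hA := by
    intro y hy
    obtain ⟨b, hb, hby⟩ := hy
    have hyy : y * y = 0 := nil_mul hB ⟨b, hb, hby⟩ ⟨b, hb, hby⟩
    have h1 := conj_mem_nil hA (hBA b hb) hx
    rw [map_inv_of hby hyy, hby] at h1
    have e : y * x - x * y - y * x * y = (1 + y) * x * (1 - y) - x := by noncomm_ring
    rw [e]; exact sub_mem h1 hx
  have h1 := key y hy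
  have h2 := key (y + y) (add_mem hy hy)
  have h3 : (2 : ℕ) • (y * x * y) ∈ nil hA := by
    have e : (2 : ℕ) • (y * x * y) = (y * x - x * y - y * x * y) + (y * x - x * y - y * x * y) -
        ((y + y) * x - x * (y + y) - (y + y) * x * (y + y)) := by
      rw [two_nsmul]; noncomm_ring
    rw [e]; exact sub_mem (add_mem h1 h1) h2
  have h4 := mem_of_nsmul hE (coprime_two hp2) h3
  refine ⟨?_, h4⟩
  have e : y * x - x * y = (y * x - x * y - y * x * y) + y * x * y := by abel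
  rw [e]; exact add_mem h1 h4

/-- `x y x = 0`. -/
theorem xyx (hp2 : p ≠ 2) (hE : ∀ x : E, p • x = 0) {A B : Subgroup G} (hA : Quad ρ A) (hB : Quad ρ B)
    (hBA : ∀ b ∈ B, ∀ a ∈ A, b * a * b⁻¹ ∈ A) {x y : E} (hx : x ∈ nil hA) (hy : y ∈ nil hB) :
    x * y * x = 0 := by
  have h1 := nil_mul hA hx (mutl hp2 hE hA hB hBA hx hy).1
  have h2 := nil_mul hA hx hx
  linear_combination (norm := noncomm_ring) h1 + h2 * y

/-- **Products**: three mutually normalising quadratic subgroups `A₀, A₁, A₂ ≤ T`. -/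
theorem exists_of_three (hp2 : p ≠ 2) (hE : ∀ x : E, p • x = 0) {T A B C : Subgroup G} (hA : Quad ρ A)
    (hB : Quad ρ B) (hC : Quad ρ C) (hAT : A ≤ T) (hBT : B ≤ T) (hCT : C ≤ T)
    (hTA : ∀ t ∈ T, ∀ a ∈ A, t * a * t⁻¹ ∈ A) (hTB : ∀ t ∈ T, ∀ a ∈ B, t * a * t⁻¹ ∈ B)
    (hTC : ∀ t ∈ T, ∀ a ∈ C, t * a * t⁻¹ ∈ C) {a b z : E} (ha : a ∈ nil hA) (hb : b ∈ nil hB)
    (hz : z ∈ nil hC) (hx : (a + b + z) * (a + b + z) = 0) : ∃ t ∈ T, ρ t = 1 + (a + b + z) := by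
  have BA : ∀ b ∈ B, ∀ a ∈ A, b * a * b⁻¹ ∈ A := fun b hb => hTA b (hBT hb)
  have CA : ∀ b ∈ C, ∀ a ∈ A, b * a * b⁻¹ ∈ A := fun b hb => hTA b (hCT hb)
  have AB : ∀ b ∈ A, ∀ a ∈ B, b * a * b⁻¹ ∈ B := fun b hb => hTB b (hAT hb)
  have CB : ∀ b ∈ C, ∀ a ∈ B, b * a * b⁻¹ ∈ B := fun b hb => hTB b (hCT hb)
  have AC : ∀ b ∈ A, ∀ a ∈ C, b * a * b⁻¹ ∈ C := fun b hb => hTC b (hAT hb)
  have BC : ∀ b ∈ B, ∀ a ∈ C, b * a * b⁻¹ ∈ C := fun b hb => hTC b (hBT hb)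
  have inv : ∀ {S : AddSubgroup E} {x y : E}, y * x - x * y ∈ S → x * y - y * x ∈ S := by
    intro S x y h
    have := S.neg_mem h
    rwa [neg_sub] at this
  have habA : a * b - b * a ∈ nil hA := inv (mutl hp2 hE hA hB BA ha hb).1
  have hazA : a * z - z * a ∈ nil hA := inv (mutl hp2 hE hA hC CA ha hz).1
  have hazC : a * z - z * a ∈ nil hC := (mutl hp2 hE hC hA AC hz ha).1
  have hbzB : b * z - z * b ∈ nil hB := inv (mutl hp2 hE hB hC CB hb hz).1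
  have hbzC : b * z - z * b ∈ nil hC := (mutl hp2 hE hC hB BC hz hb).1
  obtain ⟨c, hcA, hc⟩ := exists_half hE hp2 habA
  obtain ⟨d, hdC, hd⟩ := exists_half hE hp2 hazC
  obtain ⟨e, heC, he⟩ := exists_half hE hp2 hbzC
  have h2 : ∀ x : E, x + x = 0 → x = 0 := by
    intro x hx
    exact eq_zero_of_nsmul hE (coprime_two hp2) (by rw [two_nsmul]; exact hx)
  have hprod := prod_identity h2 (nil_mul hA ha ha) (nil_mul hB hb hb) (nil_mul hC hz hz)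
    (xyx hp2 hE hA hB BA ha hb) (xyx hp2 hE hB hA AB hb ha) (xyx hp2 hE hA hC CA ha hz)
    (xyx hp2 hE hC hA AC hz ha) (xyx hp2 hE hB hC CB hb hz) (xyx hp2 hE hC hB BC hz hb) hc hd he
    (nil_mul hC hdC hdC) (nil_mul hC hdC heC) (nil_mul hC heC hdC) (nil_mul hC heC heC) hx
  obtain ⟨a', ha', ha''⟩ := ha
  obtain ⟨b', hb', hb''⟩ := hb
  obtain ⟨z', hz', hz''⟩ := hz
  obtain ⟨c', hc', hc''⟩ := neg_mem hcA
  obtain ⟨d', hd', hd''⟩ := neg_mem hdC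
  obtain ⟨e', he', he''⟩ := neg_mem heC
  refine ⟨a' * b' * c' * z' * d' * e', ?_, ?_⟩
  · exact T.mul_mem (T.mul_mem (T.mul_mem (T.mul_mem (T.mul_mem (hAT ha') (hBT hb')) (hAT hc'))
      (hCT hz')) (hCT hd')) (hCT he')
  · rw [← hprod]
    simp only [map_mul]
    rw [ha'', hb'', hz'', hc'', hd'', he'', ← sub_eq_add_neg, ← sub_eq_add_neg, ← sub_eq_add_neg]

end Mutual

end Cfsg.Agent.H26.Limit
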