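import Cfsg.Agent.H26.LimitFix
import Cfsg.Agent.H26.LimitGroup

/-!
# Quadratic offenders normalised by all quadratic offenders (`p ≥ 5`)
-/

set_option autoImplicit false

namespace Cfsg.Agent.H26.Limit

open Subgroup

variable {p : ℕ} [hpf : Fact p.Prime] {W : Type*} [AddCommGroup W] [Module (ZMod p) W]
  {G : Type*} [Group G]

/-- Fixed vectors. -/
def fx (ρ : G →* Module.End (ZMod p) W) (A : Subgroup G) : AddSubgroup W where
  carrier := {w | ∀ a ∈ A, ρ a w = w}
  zero_mem' := by intro x _; simp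
  add_mem' := by
    intro a b ha hb x hx
    rw [map_add, ha x hx, hb x hx]
  neg_mem' := by
    intro a ha x hx
    rw [map_neg, ha x hx]

theorem fx_eq {ρ : G →* Module.End (ZMod p) W} {A : Subgroup G} (hA : Quad ρ A) : fx ρ A = ker (nil hA) := by
  ext w
  constructor
  · rintro h x ⟨a, ha, hax⟩
    have h1 := h a ha
    rw [hax, LinearMap.add_apply, Module.End.one_apply] at h1
    simpa using h1
  · intro h a ha
    have h1 := h _ (sub_one_mem_nil hA ha)
    rw [LinearMap.sub_apply, Module.End.one_apply] at h1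
    exact sub_eq_zero.1 h1

/-- The nontrivial quadratic subgroups `A` with `|A| |C_W(A)| ≥ n`. -/
def Off (ρ : G →* Module.End (ZMod p) W) (n : ℕ) : Set (Subgroup G) :=
  {A | A ≠ ⊥ ∧ Quad ρ A ∧ n ≤ Nat.card A * Nat.card (fx ρ A)}

theorem Off.conj [Finite W] {ρ : G →* Module.End (ZMod p) W} {n : ℕ} {A : Subgroup G} (hA : A ∈ Off ρ n) (g : G) :
    A.map (MulAut.conj g).toMonoidHom ∈ Off ρ n := by
  obtain ⟨h1, h2, h3⟩ := hA
  refine ⟨?_, quad_map h2 g, ?_⟩
  · intro h
    apply h1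
    exact (map_eq_bot_iff_of_injective _ (MulAut.conj g).injective).1 h
  · refine h3.trans ?_
    have e1 : Nat.card (A.map (MulAut.conj g).toMonoidHom) = Nat.card A :=
      (Nat.card_congr (A.equivMapOfInjective _ (MulAut.conj g).injective).toEquiv).symm
    rw [e1]
    refine Nat.mul_le_mul_left _ ?_
    refine Nat.card_le_card_of_injective (fun w => ⟨ρ g w.1, ?_⟩) ?_
    · rintro _ ⟨a, ha, rfl⟩
      change ρ (g * a * g⁻¹) (ρ g w.1) = _
      rw [← Module.End.mul_apply, ← map_mul, inv_mul_cancel_right, map_mul, Module.End.mul_apply, w.2 a ha]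
    · intro v w hvw
      have h4 : ρ g v.1 = ρ g w.1 := congrArg Subtype.val hvw
      have h5 : ∀ x : W, ρ g⁻¹ (ρ g x) = x := by
        intro x
        rw [← Module.End.mul_apply, ← map_mul, inv_mul_cancel, map_one, Module.End.one_apply]
      apply Subtype.ext
      rw [← h5 v.1, h4, h5]

theorem linear_main [Finite G] [Group.IsNilpotent G] [Finite W] (hp : 5 ≤ p) (ρ : G →* Module.End (ZMod p) W)
    (hρ : Function.Injective ρ) (n : ℕ) (hne : (Off ρ n).Nonempty) :
    ∃ A ∈ Off ρ n, ∀ D ∈ Off ρ n, D ≤ normalizer (A : Set G) := by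
  have hfinE : Finite (Module.End (ZMod p) W) :=
    Finite.of_injective (fun f : Module.End (ZMod p) W => (f : W → W)) DFunLike.coe_injective
  have hE : ∀ x : Module.End (ZMod p) W, p • x = 0 := by
    intro x
    rw [← Nat.cast_smul_eq_nsmul (ZMod p), CharP.cast_eq_zero, zero_smul]
  refine LimitGroup.exists_normalised _ hne (fun A hA g => Off.conj hA g) ?_
  intro T A B hA hB hAT hTA hT hBT b hb
  obtain ⟨hA1, hAq, hAn⟩ := hA
  obtain ⟨-, hBq, -⟩ := hB
  obtain ⟨m, hm⟩ : ∃ m, ρ b = 1 + m := ⟨ρ b - 1, by abel⟩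
  have hmm : m * m = 0 := by
    have := hBq b hb b hb
    rwa [hm, add_sub_cancel_left] at this
  have conjT : ∀ c ∈ B, ∀ t ∈ T, c * t * c⁻¹ ∈ T := fun c hc t ht =>
    (mem_normalizer_iff.1 (hBT hc) t).1 ht
  have hTgen : T ≤ closure {t | t ∈ T ∧ (ρ t - 1) * (ρ t - 1) = 0} := by
    conv_lhs => rw [hT]
    refine sSup_le fun D hD d hd => subset_closure ⟨hD.2 hd, hD.1.2.1 d hd d hd⟩
  obtain ⟨A', hA'q, hA'T, hnil, hcard, hTA', hbA', hcA'⟩ := kp hp hE hρ hAq hAT
    (fun t ht a ha => (mem_normalizer_iff.1 (hTA ht) a).1 ha) hTgen hm hmm (conjT b hb)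
    (conjT b⁻¹ (B.inv_mem hb))
  refine ⟨A', ⟨?_, hA'q, ?_⟩, hA'T, fun t ht => LimitGroup.mem_normalizer_of (hTA' t ht),
    LimitGroup.mem_normalizer_of hbA', fun c hc => LimitGroup.mem_normalizer_of ?_⟩
  · intro h
    have h1 : 1 < Nat.card A := (Subgroup.one_lt_card_iff_ne_bot A).2 hA1
    rw [h, Subgroup.card_bot] at hcard
    omega
  · refine hAn.trans (Nat.mul_le_mul hcard ?_)
    rw [fx_eq hAq, fx_eq hA'q, hnil]
    exact card_ker_le hmm _
  · refine hcA' c (conjT c hc.1) (fun a ha => (mem_normalizer_iff.1 hc.2 a).1 ha) ?_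
    have h1 := hBq c hc.1 b hb
    have h2 := hBq b hb c hc.1
    rw [hm, add_sub_cancel_left] at h1 h2
    change ρ c * m = m * ρ c
    linear_combination (norm := noncomm_ring) h1 - h2

end Cfsg.Agent.H26.Limit
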