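import Cfsg.Agent.H26.LimitKP

/-!
# The limit subgroup: main properties
-/

set_option autoImplicit false

namespace Cfsg.Agent.H26.Limit

open Polynomial

section KP

variable {G : Type*} [Group G] {E : Type*} [Ring E] {ρ : G →* E} {p : ℕ} [hpf : Fact p.Prime]

theorem map_pow_of {b : G} {m : E} (hm : m * m = 0) (hb : ρ b = 1 + m) (t : ℕ) : ρ (b ^ t) = 1 + t • m := by
  induction t with
  | zero => simp
  | succ t ih =>
    rw [pow_succ, map_mul, ih, hb, mul_add, mul_one, add_mul, one_mul, smul_mul_assoc, hm, smul_zero,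
      add_zero, succ_nsmul, add_assoc]

theorem quartic_polys (hp : 5 ≤ p) (hE : ∀ x : E, p • x = 0) {m e a : E} (hm : m * m = 0) {S : AddSubgroup E}
    (h : ∀ t : ℕ, (1 + (e + t • (e * m - m * e) + t ^ 2 • (-(m * e * m)))) * a *
      (1 - (e + t • (e * m - m * e) + t ^ 2 • (-(m * e * m)))) ∈ S) :
    dn m * C (1 + e) * up m * C a * dn m * C (1 - e) * up m ∈ polys S := by
  set u := e * m - m * e with hu
  set w := -(m * e * m) with hw
  have hq : dn m * C e * up m = monomial 0 e + monomial 1 u + monomial 2 w := by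
    rw [dn, up, ← monomial_zero_left]
    have e1 : (monomial 1 m : E[X]) * monomial 0 e = monomial 1 (m * e) := by
      rw [monomial_mul_monomial]
    have e2 : (monomial 0 e : E[X]) * monomial 1 m = monomial 1 (e * m) := by
      rw [monomial_mul_monomial]
    have e3 : (monomial 1 (m * e) : E[X]) * monomial 1 m = monomial 2 (m * e * m) := by
      rw [monomial_mul_monomial]
    rw [hu, hw, map_sub, map_neg]
    calc (1 - monomial 1 m) * monomial 0 e * (1 + monomial 1 m)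
        = monomial 0 e - monomial 1 m * monomial 0 e + monomial 0 e * monomial 1 m
          - (monomial 1 m * monomial 0 e) * monomial 1 m := by noncomm_ring
      _ = _ := by rw [e1, e2, e3]; abel
  have hq1 : dn m * C (1 + e) * up m = 1 + (monomial 0 e + monomial 1 u + monomial 2 w) := by
    rw [← hq, C_add, C_1, mul_add, mul_one, add_mul, dn_mul_up hm]
  have hq2 : dn m * C (1 - e) * up m = 1 - (monomial 0 e + monomial 1 u + monomial 2 w) := by
    rw [← hq, C_sub, C_1, mul_sub, mul_one, sub_mul, dn_mul_up hm]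
  have key : dn m * C (1 + e) * up m * C a * dn m * C (1 - e) * up m =
      monomial 0 (a + (e * a - a * e) - e * a * e)
      + monomial 1 ((u * a - a * u) - (e * a * u + u * a * e))
      + monomial 2 ((w * a - a * w) - (e * a * w + u * a * u + w * a * e))
      + monomial 3 (-(u * a * w + w * a * u)) + monomial 4 (-(w * a * w)) := by
    have e0 : dn m * C (1 + e) * up m * C a * dn m * C (1 - e) * up m =
        (dn m * C (1 + e) * up m) * C a * (dn m * C (1 - e) * up m) := by simp only [mul_assoc]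
    rw [e0, hq1, hq2, ← monomial_zero_left]
    have hone : (1 : E[X]) = monomial 0 1 := by rw [monomial_zero_left, C_1]
    rw [hone]
    simp only [add_mul, mul_add, mul_sub, monomial_mul_monomial, map_add, map_sub, map_neg, one_mul,
      mul_one, zero_add, add_zero, Nat.reduceAdd]
    abel
  have hval : ∀ t : ℕ, (a + (e * a - a * e) - e * a * e)
      + t • ((u * a - a * u) - (e * a * u + u * a * e))
      + t ^ 2 • ((w * a - a * w) - (e * a * w + u * a * u + w * a * e))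
      + t ^ 3 • (-(u * a * w + w * a * u)) + t ^ 4 • (-(w * a * w)) ∈ S := by
    intro t
    have e1 : (a + (e * a - a * e) - e * a * e)
      + t • ((u * a - a * u) - (e * a * u + u * a * e))
      + t ^ 2 • ((w * a - a * w) - (e * a * w + u * a * u + w * a * e))
      + t ^ 3 • (-(u * a * w + w * a * u)) + t ^ 4 • (-(w * a * w)) =
      (1 + (e + t • u + t ^ 2 • w)) * a * (1 - (e + t • u + t ^ 2 • w)) := by
      simp only [add_mul, mul_add, mul_sub, one_mul, mul_one, smul_mul_assoc, mul_smul_comm]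
      module
    rw [e1]; exact h t
  obtain ⟨h0, h1, h2, h3, h4⟩ := quartic hE hp hval
  rw [key]
  exact add_mem (add_mem (add_mem (add_mem (monomial_mem_polys h0) (monomial_mem_polys h1))
    (monomial_mem_polys h2)) (monomial_mem_polys h3)) (monomial_mem_polys h4)

theorem conj_pow_mem {T : Subgroup G} {b : G} (hbT : ∀ t ∈ T, b * t * b⁻¹ ∈ T) (n : ℕ) :
    ∀ t ∈ T, b ^ n * t * (b ^ n)⁻¹ ∈ T := by
  induction n with
  | zero => intro t ht; simpa using ht
  | succ n ih =>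
    intro t ht
    have h1 := hbT _ (ih t ht)
    have e : b ^ (n + 1) * t * (b ^ (n + 1))⁻¹ = b * (b ^ n * t * (b ^ n)⁻¹) * b⁻¹ := by
      rw [pow_succ']; group
    rw [e]; exact h1

/-- Conjugate subgroups -/
theorem quad_map {A : Subgroup G} (hA : Quad ρ A) (b : G) : Quad ρ (A.map (MulAut.conj b).toMonoidHom) := by
  rintro _ ⟨a, ha, rfl⟩ _ ⟨c, hc, rfl⟩
  have h := hA a ha c hc
  have h1 : ∀ x : G, ρ ((MulAut.conj b).toMonoidHom x) - 1 = ρ b * (ρ x - 1) * ρ b⁻¹ := by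
    intro x
    have h2 : ρ b * ρ b⁻¹ = 1 := by rw [← map_mul, mul_inv_cancel, map_one]
    change ρ (b * x * b⁻¹) - 1 = _
    rw [map_mul, map_mul, mul_sub, sub_mul, mul_one, h2]
  have h3 : ρ b⁻¹ * ρ b = 1 := by rw [← map_mul, inv_mul_cancel, map_one]
  rw [h1, h1]
  calc ρ b * (ρ a - 1) * ρ b⁻¹ * (ρ b * (ρ c - 1) * ρ b⁻¹)
      = ρ b * (ρ a - 1) * (ρ b⁻¹ * ρ b) * (ρ c - 1) * ρ b⁻¹ := by simp only [mul_assoc]
    _ = ρ b * ((ρ a - 1) * (ρ c - 1)) * ρ b⁻¹ := by rw [h3, mul_one]; simp only [mul_assoc]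
    _ = 0 := by rw [h, mul_zero, zero_mul]

theorem conj_mem_nil_map {A : Subgroup G} (hA : Quad ρ A) (b : G) {x : E} (hx : x ∈ nil hA) :
    ρ b * x * ρ b⁻¹ ∈ nil (quad_map hA b) := by
  obtain ⟨a, ha, hax⟩ := hx
  refine ⟨b * a * b⁻¹, ⟨a, ha, rfl⟩, ?_⟩
  have h2 : ρ b * ρ b⁻¹ = 1 := by rw [← map_mul, mul_inv_cancel, map_one]
  rw [map_mul, map_mul, hax, mul_add, add_mul, mul_one, h2]

theorem norm_map {T A : Subgroup G} (hTA : ∀ t ∈ T, ∀ a ∈ A, t * a * t⁻¹ ∈ A) {b : G}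
    (hbT' : ∀ t ∈ T, b⁻¹ * t * b⁻¹⁻¹ ∈ T) :
    ∀ t ∈ T, ∀ a ∈ A.map (MulAut.conj b).toMonoidHom, t * a * t⁻¹ ∈ A.map (MulAut.conj b).toMonoidHom := by
  rintro t ht _ ⟨a, ha, rfl⟩
  refine ⟨(b⁻¹ * t * b⁻¹⁻¹) * a * (b⁻¹ * t * b⁻¹⁻¹)⁻¹, hTA _ (hbT' t ht) a ha, ?_⟩
  change b * _ * b⁻¹ = t * (b * a * b⁻¹) * t⁻¹
  group

/-- **The limit subgroup.** -/
theorem kp [Finite G] [Finite E] (hp : 5 ≤ p) (hE : ∀ x : E, p • x = 0) (hρ : Function.Injective ρ)
    {T A : Subgroup G} (hA : Quad ρ A) (hAT : A ≤ T) (hTA : ∀ t ∈ T, ∀ a ∈ A, t * a * t⁻¹ ∈ A)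
    (hT : T ≤ Subgroup.closure {t | t ∈ T ∧ (ρ t - 1) * (ρ t - 1) = 0})
    {b : G} {m : E} (hb : ρ b = 1 + m) (hm : m * m = 0) (hbT : ∀ t ∈ T, b * t * b⁻¹ ∈ T)
    (hbT' : ∀ t ∈ T, b⁻¹ * t * b⁻¹⁻¹ ∈ T) :
    ∃ A' : Subgroup G, ∃ hA' : Quad ρ A', A' ≤ T ∧ nil hA' = lead (up m) (dn m) (nil hA) ∧
      Nat.card A ≤ Nat.card A' ∧ (∀ t ∈ T, ∀ a ∈ A', t * a * t⁻¹ ∈ A') ∧ (∀ a ∈ A', b * a * b⁻¹ ∈ A') ∧
      ∀ c : G, (∀ t ∈ T, c * t * c⁻¹ ∈ T) → (∀ a ∈ A, c * a * c⁻¹ ∈ A) → Commute (ρ c) m →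
        ∀ a ∈ A', c * a * c⁻¹ ∈ A' := by
  have hp2 : p ≠ 2 := by omega
  have hbinv : ρ b⁻¹ = 1 - m := map_inv_of hb hm
  set S := lead (up m) (dn m) (nil hA) with hS
  have hSS : ∀ x ∈ S, ∀ y ∈ S, x * y = 0 := fun x hx y hy =>
    lead_mul_eq_zero (dn_mul_up hm) (fun x hx y hy => nil_mul hA hx hy) hx hy
  have hST : ∀ x ∈ S, ∃ t ∈ T, ρ t = 1 + x := by
    intro x hx
    have hxx := hSS x hx x hx
    obtain ⟨f, hf, k, -, hkx⟩ := hx
    set A₁ := A.map (MulAut.conj b).toMonoidHom with hA₁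
    set A₂ := A.map (MulAut.conj b⁻¹).toMonoidHom with hA₂
    have q₁ : Quad ρ A₁ := quad_map hA b
    have q₂ : Quad ρ A₂ := quad_map hA b⁻¹
    have m₁ : ∀ a ∈ nil hA, (1 + m) * a * (1 - m) ∈ nil q₁ := by
      intro a ha
      have := conj_mem_nil_map hA b ha
      rwa [hbinv, hb] at this
    have m₂ : ∀ a ∈ nil hA, (1 - m) * a * (1 + m) ∈ nil q₂ := by
      intro a ha
      have := conj_mem_nil_map hA b⁻¹ ha
      rwa [hbinv, inv_inv, hb] at this
    have hmem : x ∈ nil hA ⊔ nil q₁ ⊔ nil q₂ := by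
      rw [← hkx]
      have i0 : nil hA ≤ nil hA ⊔ nil q₁ ⊔ nil q₂ := le_sup_left.trans le_sup_left
      have i1 : nil q₁ ≤ nil hA ⊔ nil q₁ ⊔ nil q₂ := le_sup_right.trans le_sup_left
      have i2 : nil q₂ ≤ nil hA ⊔ nil q₁ ⊔ nil q₂ := le_sup_right
      refine coeff_theta_mem (S := nil hA) (fun a ha => i0 ha) (fun a ha => ?_) (fun a ha => ?_) hf k
      · apply mem_of_nsmul hE (coprime_two hp2)
        have e : (2 : ℕ) • (m * a - a * m) = (1 + m) * a * (1 - m) - (1 - m) * a * (1 + m) := by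
          rw [two_nsmul]; noncomm_ring
        rw [e]
        exact sub_mem (i1 (m₁ a ha)) (i2 (m₂ a ha))
      · apply mem_of_nsmul hE (coprime_two hp2)
        have e : (2 : ℕ) • (m * a * m) = a + a - (1 + m) * a * (1 - m) - (1 - m) * a * (1 + m) := by
          rw [two_nsmul]; noncomm_ring
        rw [e]
        exact sub_mem (sub_mem (add_mem (i0 ha) (i0 ha)) (i1 (m₁ a ha))) (i2 (m₂ a ha))
    obtain ⟨y, hy, z, hz, hyz⟩ := AddSubgroup.mem_sup.1 hmem
    obtain ⟨a₀, ha₀, a₁, ha₁, haa⟩ := AddSubgroup.mem_sup.1 hy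
    rw [← hyz, ← haa]
    refine exists_of_three hp2 hE hA q₁ q₂ hAT ?_ ?_ hTA (norm_map hTA hbT') ?_ ha₀ ha₁ hz ?_
    · rintro _ ⟨a, ha, rfl⟩
      exact hbT a (hAT ha)
    · rintro _ ⟨a, ha, rfl⟩
      exact hbT' a (hAT ha)
    · refine norm_map hTA (b := b⁻¹) fun t ht => ?_
      have := hbT t ht
      rwa [inv_inv]
    · rw [haa, hyz]; exact hxx
  have hST' : ∀ x ∈ S, ∀ t, ρ t = 1 + x → t ∈ T := by
    intro x hx t ht
    obtain ⟨t', ht', ht''⟩ := hST x hx
    have : t = t' := hρ (ht.trans ht''.symm)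
    rwa [this]
  set A' := grp ρ T S hSS with hA'
  have hnil : nil (grp_quad (ρ := ρ) (T := T) hSS) = S := by
    ext x
    rw [mem_nil]
    constructor
    · rintro ⟨a, ha, hax⟩
      have := ha.2
      rwa [hax, add_sub_cancel_left] at this
    · intro hx
      obtain ⟨t, ht, htx⟩ := hST x hx
      exact ⟨t, ⟨ht, by rw [htx, add_sub_cancel_left]; exact hx⟩, htx⟩
  refine ⟨A', grp_quad hSS, fun a ha => ha.1, hnil, ?_, ?_, ?_, ?_⟩
  · rw [card_nil hρ hA, hA', card_grp hρ hSS hST]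
    exact card_le_lead (dn_mul_up hm) (dn_mul_up hm) (natDegree_up m) (natDegree_dn m) _
  · -- normalised by `T`
    have gen : ∀ t ∈ T, (ρ t - 1) * (ρ t - 1) = 0 → ∀ x ∈ S, ρ t * x * ρ t⁻¹ ∈ S := by
      intro t ht htt x hx
      obtain ⟨e, he⟩ : ∃ e, ρ t = 1 + e := ⟨ρ t - 1, by abel⟩
      have hee : e * e = 0 := by rwa [he, add_sub_cancel_left] at htt
      rw [map_inv_of he hee, he]
      refine conj_mem_lead hm (fun a ha => ?_) hx
      refine quartic_polys hp hE hm fun n => ?_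
      have h1 := conj_pow_mem hbT' n t ht
      rw [inv_pow, inv_inv] at h1
      have h2 := conj_mem_nil hA (hTA _ h1) ha
      have hbn : ρ (b ^ n) = 1 + n • m := map_pow_of hm hb n
      have hmn : (n • m) * (n • m) = 0 := by rw [smul_mul_assoc, mul_smul_comm, hm, smul_zero, smul_zero]
      have hbn' : ρ (b ^ n)⁻¹ = 1 - n • m := map_inv_of hbn hmn
      have h3 : ρ ((b ^ n)⁻¹ * t * b ^ n) = 1 + (e + n • (e * m - m * e) + n ^ 2 • (-(m * e * m))) := by
        rw [map_mul, map_mul, hbn', hbn, he]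
        simp only [add_mul, mul_add, sub_mul, one_mul, mul_one, smul_mul_assoc, mul_smul_comm, hm, smul_zero]
        module
      have h4 : ρ ((b ^ n)⁻¹ * t * b ^ n)⁻¹ = 1 - (e + n • (e * m - m * e) + n ^ 2 • (-(m * e * m))) := by
        have e1 : ((b ^ n)⁻¹ * t * b ^ n)⁻¹ = (b ^ n)⁻¹ * t⁻¹ * b ^ n := by group
        rw [e1, map_mul, map_mul, hbn', hbn, map_inv_of he hee]
        simp only [mul_add, sub_mul, mul_sub, one_mul, mul_one, smul_mul_assoc, mul_smul_comm, hm,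
          smul_zero]
        module
      rw [h3, h4] at h2
      exact h2
    have all : ∀ t ∈ T, (∀ x ∈ S, ρ t * x * ρ t⁻¹ ∈ S) ∧ (∀ x ∈ S, ρ t⁻¹ * x * ρ t ∈ S) := by
      intro t ht
      refine Subgroup.closure_induction (p := fun t _ => (∀ x ∈ S, ρ t * x * ρ t⁻¹ ∈ S) ∧
        (∀ x ∈ S, ρ t⁻¹ * x * ρ t ∈ S)) ?_ ?_ ?_ ?_ (hT ht)
      · rintro t ⟨ht, htt⟩
        refine ⟨gen t ht htt, ?_⟩
        obtain ⟨e, he⟩ : ∃ e, ρ t = 1 + e := ⟨ρ t - 1, by abel⟩
        have hee : e * e = 0 := by rwa [he, add_sub_cancel_left] at htt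
        have h1 := gen t⁻¹ (T.inv_mem ht) (by
          rw [map_inv_of he hee]
          linear_combination (norm := noncomm_ring) hee)
        rwa [inv_inv] at h1
      · refine ⟨fun x hx => ?_, fun x hx => ?_⟩ <;> simpa using hx
      · rintro s t _ _ ⟨hs, hs'⟩ ⟨ht, ht'⟩
        refine ⟨fun x hx => ?_, fun x hx => ?_⟩
        · have := hs _ (ht x hx)
          rw [mul_inv_rev, map_mul, map_mul]
          simpa only [mul_assoc] using this
        · have := ht' _ (hs' x hx)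
          rw [mul_inv_rev, map_mul, map_mul]
          simpa only [mul_assoc] using this
      · rintro t _ ⟨ht, ht'⟩
        exact ⟨by simpa only [inv_inv] using ht', by simpa only [inv_inv] using ht⟩
    intro t ht a ha
    exact conj_mem_grp (fun s hs => T.mul_mem (T.mul_mem ht hs) (T.inv_mem ht)) (all t ht).1 ha
  · intro a ha
    refine conj_mem_grp hbT (fun x hx => ?_) ha
    rw [hbinv, hb]
    exact conj_up_mem_lead hp2 hE hm hx
  · intro c hcT hcA hcm a ha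
    refine conj_mem_grp hcT (fun x hx => ?_) ha
    refine conj_mem_lead hm (fun a ha => ?_) hx
    have hc1 : dn m * C (ρ c) = C (ρ c) * dn m := by
      rw [dn, sub_mul, mul_sub, one_mul, mul_one, monomial_mul_C, C_mul_monomial, hcm.eq]
    have hcm' : Commute (ρ c⁻¹) m := by
      have h1 : ρ c⁻¹ * ρ c = 1 := by rw [← map_mul, inv_mul_cancel, map_one]
      have h2 : ρ c * ρ c⁻¹ = 1 := by rw [← map_mul, mul_inv_cancel, map_one]
      change ρ c⁻¹ * m = m * ρ c⁻¹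
      calc ρ c⁻¹ * m = ρ c⁻¹ * (m * ρ c) * ρ c⁻¹ := by
            rw [mul_assoc, mul_assoc, h2, mul_one]
        _ = ρ c⁻¹ * (ρ c * m) * ρ c⁻¹ := by rw [hcm.eq]
        _ = m * ρ c⁻¹ := by rw [← mul_assoc, h1, one_mul]
    have hc2 : dn m * C (ρ c⁻¹) = C (ρ c⁻¹) * dn m := by
      rw [dn, sub_mul, mul_sub, one_mul, mul_one, monomial_mul_C, C_mul_monomial, hcm'.eq]
    have key : dn m * C (ρ c) * up m * C a * dn m * C (ρ c⁻¹) * up m = C (ρ c * a * ρ c⁻¹) := by
      rw [hc1]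
      calc C (ρ c) * dn m * up m * C a * dn m * C (ρ c⁻¹) * up m
          = C (ρ c) * (dn m * up m) * C a * (dn m * C (ρ c⁻¹)) * up m := by simp only [mul_assoc]
        _ = C (ρ c) * C a * C (ρ c⁻¹) * (dn m * up m) := by
            rw [hc2, dn_mul_up hm, mul_one]; simp only [mul_assoc, dn_mul_up hm, mul_one]
        _ = _ := by rw [dn_mul_up hm, mul_one, C_mul, C_mul]
    rw [key, ← monomial_zero_left]
    exact monomial_mem_polys (conj_mem_nil hA hcA ha)

end KP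

end Cfsg.Agent.H26.Limit
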