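import Cfsg.Agent.H26.LimitLinear
import Cfsg.Agent.S0599
import Cfsg.Agent.PLocal.Timmesfeld

/-!
# Quadratic offenders inside elementary abelian offenders
-/

set_option autoImplicit false

namespace Cfsg.Agent.H26.LimitOffender

open Subgroup PLocal.Timmesfeld
open scoped commutatorElement

variable {G : Type*} [Group G] [Finite G] {p : ℕ} [hpf : Fact p.Prime]

/-- Replacement keeps `|A| |C_V(A)|`. -/
theorem le_replacement (V A : Subgroup G) (hV : Cfsg.IsElementaryAbelian p V)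
    (hAV : A ≤ Subgroup.normalizer (V : Set G)) (hA : Cfsg.IsBestOffenderOn p V A) :
    Nat.card A * Nat.card (V ⊓ centralizer (A : Set G) : Subgroup G) ≤
      Nat.card (A ⊓ centralizer ((⁅V, A⁆ : Subgroup G) : Set G) : Subgroup G) *
      Nat.card (V ⊓ centralizer ((A ⊓ centralizer ((⁅V, A⁆ : Subgroup G) : Set G) : Subgroup G) : Set G) :
        Subgroup G) := by
  classical
  obtain ⟨hbest, hAA, hAp⟩ := hA
  have hVc : ∀ x ∈ V, ∀ y ∈ V, x * y = y * x := fun x hx y hy =>
    congrArg Subtype.val (hV.1.1.1 (⟨x, hx⟩ : V) (⟨y, hy⟩ : V))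
  set C : Subgroup G := V ⊓ Subgroup.centralizer (A : Set G) with hC
  set m : ℕ := Nat.card A * Nat.card C with hm
  have hmpos : 0 < m := Nat.mul_pos Nat.card_pos Nat.card_pos
  have hle : ∀ W : Subgroup G, W ≤ V → meas A W ≤ m := by
    intro W hW
    refine le_trans (Nat.mul_le_mul_left _ ?_) (hbest (A ⊓ Subgroup.centralizer (W : Set G)) inf_le_left)
    refine Subgroup.card_le_of_le ?_
    refine le_inf hW ?_
    rw [Subgroup.le_centralizer_iff]
    exact inf_le_right
  have hUV : ⁅V, A⁆ ≤ V := by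
    rw [Subgroup.commutator_le]
    intro u hu a ha
    exact commutator_mem_of_mem hAV hu ha
  have hCV : C ≤ V := inf_le_left
  let T : Finset G := (Set.toFinite (V : Set G)).toFinset
  have hT : ∀ u, u ∈ T ↔ u ∈ V := fun u => by simp [T]
  have hsup : ⁅V, A⁆ ≤ T.sup (elemComm A) := by
    rw [Subgroup.commutator_le]
    intro u hu a ha
    exact Finset.le_sup (f := elemComm A) ((hT u).2 hu) (Subgroup.subset_closure ⟨a, ha, rfl⟩)
  have hsup' : T.sup (elemComm A) = ⁅V, A⁆ := by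
    refine le_antisymm (Finset.sup_le fun u hu => (Subgroup.closure_le _).2 ?_) hsup
    rintro x ⟨a, ha, rfl⟩
    exact Subgroup.commutator_mem_commutator ((hT u).1 hu) ha
  have hmeasC : m ≤ meas A (⊥ ⊔ C) := by
    rw [bot_sup_eq, meas_def]
    refine Nat.mul_le_mul_right _ (Subgroup.card_le_of_le ?_)
    refine le_inf le_rfl ?_
    rw [Subgroup.le_centralizer_iff]
    exact inf_le_right
  have hmain : (m ≤ meas A (⁅V, A⁆ ⊔ C)) ∧ ⁅V, A⁆ ≤ V := by
    rw [← hsup']
    refine Finset.sup_induction (p := fun W => m ≤ meas A (W ⊔ C) ∧ W ≤ V) ⟨hmeasC, bot_le⟩ ?_ ?_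
    · rintro W₁ ⟨h₁, h₁'⟩ W₂ ⟨h₂, h₂'⟩
      refine ⟨?_, sup_le h₁' h₂'⟩
      have h3 := meas_mul_meas_le A (W₁ ⊔ C) (W₂ ⊔ C)
      have h4 : (W₁ ⊔ C) ⊔ (W₂ ⊔ C) = W₁ ⊔ W₂ ⊔ C := (sup_sup_distrib_right W₁ W₂ C).symm
      rw [h4] at h3
      have h5 := hle ((W₁ ⊔ C) ⊓ (W₂ ⊔ C)) (inf_le_left.trans (sup_le h₁' hCV))
      have h6 : m * m ≤ meas A (W₁ ⊔ W₂ ⊔ C) * m :=
        (Nat.mul_le_mul h₁ h₂).trans (h3.trans (Nat.mul_le_mul_left _ h5))
      exact Nat.le_of_mul_le_mul_right h6 hmpos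
    · intro u hu
      exact ⟨le_meas_elemComm hVc hAV hAA ((hT u).1 hu), elemComm_le hAV ((hT u).1 hu)⟩
  have hmain1 := hmain.1
  rw [meas_def] at hmain1
  refine hmain1.trans ?_
  have hBW : A ⊓ Subgroup.centralizer ((⁅V, A⁆ ⊔ C : Subgroup G) : Set G) =
      A ⊓ Subgroup.centralizer ((⁅V, A⁆ : Subgroup G) : Set G) := by
    refine le_antisymm (inf_le_inf_left _ (Subgroup.centralizer_le (SetLike.coe_subset_coe.2 le_sup_left))) ?_
    refine le_inf inf_le_left ?_
    rw [centralizer_sup]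
    refine le_inf inf_le_right (inf_le_left.trans ?_)
    rw [Subgroup.le_centralizer_iff]
    exact inf_le_right
  rw [hBW]
  refine Nat.mul_le_mul_left _ (Subgroup.card_le_of_le ?_)
  refine le_inf (sup_le hUV hCV) ?_
  rw [Subgroup.le_centralizer_iff, ← hBW]
  exact inf_le_right

/-- An elementary abelian offender, faithful on `V`, contains a nontrivial quadratic offender. -/
theorem exists_quadratic (V E : Subgroup G) (hV : Cfsg.IsElementaryAbelian p V)
    (hEV : E ≤ Subgroup.normalizer (V : Set G)) (hf : E ⊓ centralizer (V : Set G) = ⊥)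
    (hE : Cfsg.IsElementaryAbelian p E) (hE1 : E ≠ ⊥)
    (hoff : Nat.card V ≤ Nat.card E * Nat.card (V ⊓ centralizer (E : Set G) : Subgroup G)) :
    ∃ B ≤ E, B ≠ ⊥ ∧ ⁅⁅V, B⁆, B⁆ = ⊥ ∧
      Nat.card V ≤ Nat.card B * Nat.card (V ⊓ centralizer (B : Set G) : Subgroup G) := by
  let P : Set (Subgroup G) := {F | F ≤ E ∧ F ≠ ⊥}
  have : Nonempty P := ⟨⟨E, le_rfl, hE1⟩⟩
  obtain ⟨⟨A, hAE, hA1⟩, hmax⟩ := Finite.exists_max
    (fun F : P => Nat.card (F : Subgroup G) * Nat.card (V ⊓ centralizer ((F : Subgroup G) : Set G) : Subgroup G))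
  have hVA : Nat.card V ≤ Nat.card A * Nat.card (V ⊓ centralizer (A : Set G) : Subgroup G) :=
    hoff.trans (hmax ⟨E, le_rfl, hE1⟩)
  have hAc : ∀ x ∈ A, ∀ y ∈ A, x * y = y * x := fun x hx y hy =>
    congrArg Subtype.val (hE.1.1.1 (⟨x, hAE hx⟩ : E) (⟨y, hAE hy⟩ : E))
  have hbest : Cfsg.IsBestOffenderOn p V A := by
    refine ⟨?_, ?_, ?_⟩
    · intro B hB
      by_cases hB1 : B = ⊥
      · subst hB1
        rw [Subgroup.card_bot, one_mul]
        exact (Subgroup.card_le_of_le inf_le_left).trans hVA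
      · exact hmax ⟨B, hB.trans hAE, hB1⟩
    · rw [Subgroup.commutator_le]
      intro x hx y hy
      rw [commutatorElement_def, hAc x hx y hy, mul_inv_cancel_right, mul_inv_cancel]
      exact one_mem _
    · intro a ha
      rw [hE.2 a (hAE ha)]
      exact one_mem _
  have hAV : A ≤ Subgroup.normalizer (V : Set G) := hAE.trans hEV
  have h1 := S0599.result V A hV hAV hbest V le_rfl
  have h2 := le_replacement V A hV hAV hbest
  set B := A ⊓ centralizer ((⁅V, A⁆ : Subgroup G) : Set G) with hB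
  refine ⟨B, inf_le_left.trans hAE, ?_, ?_, hVA.trans h2⟩
  · intro hB1
    apply h1.2.2
    · intro h3
      apply hA1
      rw [eq_bot_iff, ← hf]
      refine le_inf hAE ?_
      rw [Subgroup.le_centralizer_iff]
      exact (Subgroup.commutator_eq_bot_iff_le_centralizer).1 h3
    · rw [hB1, Subgroup.commutator_bot_right]
  · rw [Subgroup.commutator_eq_bot_iff_le_centralizer, Subgroup.le_centralizer_iff]
    exact inf_le_right.trans (Subgroup.centralizer_le (SetLike.coe_subset_coe.2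
      (Subgroup.commutator_mono le_rfl inf_le_left)))

end Cfsg.Agent.H26.LimitOffender
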