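import Mathlib

/-!
# Ring identities for the limit construction
-/

set_option autoImplicit false

namespace Cfsg.Agent.H26.Limit

section Div

variable {p : ℕ} [hpf : Fact p.Prime] {E : Type*} [AddCommGroup E]

theorem mem_of_nsmul (hE : ∀ x : E, p • x = 0) {S : AddSubgroup E} {n : ℕ} (hn : n.Coprime p) {x : E}
    (h : n • x ∈ S) : x ∈ S := by
  obtain ⟨m, -, hm⟩ := Nat.exists_mul_mod_eq_one_of_coprime hn hpf.out.one_lt
  have h1 : n * m = p * (n * m / p) + 1 := by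
    conv_lhs => rw [← Nat.div_add_mod (n * m) p, hm]
  have h2 : (n * m) • x = x := by
    rw [h1, add_smul, mul_comm, mul_smul, hE, smul_zero, zero_add, one_smul]
  rw [← h2, mul_comm, mul_smul]
  exact S.nsmul_mem h m

theorem eq_zero_of_nsmul (hE : ∀ x : E, p • x = 0) {n : ℕ} (hn : n.Coprime p) {x : E}
    (h : n • x = 0) : x = 0 := by
  have : x ∈ (⊥ : AddSubgroup E) := mem_of_nsmul hE hn (by rw [h]; exact zero_mem _)
  simpa using this

theorem exists_half (hE : ∀ x : E, p • x = 0) (hp : p ≠ 2) {S : AddSubgroup E} {x : E} (h : x ∈ S) :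
    ∃ y ∈ S, y + y = x := by
  obtain ⟨k, hk⟩ := hpf.out.odd_of_ne_two hp
  refine ⟨(k + 1) • x, S.nsmul_mem h _, ?_⟩
  rw [← add_smul, show k + 1 + (k + 1) = p + 1 by omega, add_smul, hE, zero_add, one_smul]

theorem coprime_two (hp : p ≠ 2) : (2 : ℕ).Coprime p :=
  (Nat.coprime_primes Nat.prime_two hpf.out).2 (Ne.symm hp)

/-- Coefficients of a quartic polynomial with values in `S`. -/
theorem quartic (hE : ∀ x : E, p • x = 0) (hp : 5 ≤ p) {S : AddSubgroup E} {c₀ c₁ c₂ c₃ c₄ : E}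
    (h : ∀ t : ℕ, c₀ + t • c₁ + t ^ 2 • c₂ + t ^ 3 • c₃ + t ^ 4 • c₄ ∈ S) :
    c₀ ∈ S ∧ c₁ ∈ S ∧ c₂ ∈ S ∧ c₃ ∈ S ∧ c₄ ∈ S := by
  have hp24 : (24 : ℕ).Coprime p := by
    rw [Nat.coprime_comm, Nat.Prime.coprime_iff_not_dvd hpf.out]
    intro hd
    have h1 : p ∣ 2 ^ 3 * 3 := hd
    rcases (hpf.out.dvd_mul).1 h1 with h2 | h2
    · have := (Nat.prime_dvd_prime_iff_eq hpf.out Nat.prime_two).1 (hpf.out.dvd_of_dvd_pow h2)
      omega
    · have := (Nat.prime_dvd_prime_iff_eq hpf.out Nat.prime_three).1 h2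
      omega
  have v0 := h 0
  have v1 := h 1
  have v2 := h 2
  have v3 := h 3
  have v4 := h 4
  have h0 : c₀ ∈ S := by
    have e : c₀ = c₀ + 0 • c₁ + 0 ^ 2 • c₂ + 0 ^ 3 • c₃ + 0 ^ 4 • c₄ := by simp
    rw [e]; exact v0
  refine ⟨h0, ?_, ?_, ?_, ?_⟩
  · apply mem_of_nsmul hE hp24
    have e : (24 : ℕ) • c₁ = (96 : ℤ) • (c₀ + 1 • c₁ + 1 ^ 2 • c₂ + 1 ^ 3 • c₃ + 1 ^ 4 • c₄)
        - (72 : ℤ) • (c₀ + 2 • c₁ + 2 ^ 2 • c₂ + 2 ^ 3 • c₃ + 2 ^ 4 • c₄)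
        + (32 : ℤ) • (c₀ + 3 • c₁ + 3 ^ 2 • c₂ + 3 ^ 3 • c₃ + 3 ^ 4 • c₄)
        - (6 : ℤ) • (c₀ + 4 • c₁ + 4 ^ 2 • c₂ + 4 ^ 3 • c₃ + 4 ^ 4 • c₄) - (50 : ℤ) • c₀ := by
      module
    rw [e]
    exact S.sub_mem (S.sub_mem (S.add_mem (S.sub_mem (S.zsmul_mem v1 _) (S.zsmul_mem v2 _))
      (S.zsmul_mem v3 _)) (S.zsmul_mem v4 _)) (S.zsmul_mem h0 _)
  · apply mem_of_nsmul hE hp24
    have e : (24 : ℕ) • c₂ = (-104 : ℤ) • (c₀ + 1 • c₁ + 1 ^ 2 • c₂ + 1 ^ 3 • c₃ + 1 ^ 4 • c₄)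
        + (114 : ℤ) • (c₀ + 2 • c₁ + 2 ^ 2 • c₂ + 2 ^ 3 • c₃ + 2 ^ 4 • c₄)
        - (56 : ℤ) • (c₀ + 3 • c₁ + 3 ^ 2 • c₂ + 3 ^ 3 • c₃ + 3 ^ 4 • c₄)
        + (11 : ℤ) • (c₀ + 4 • c₁ + 4 ^ 2 • c₂ + 4 ^ 3 • c₃ + 4 ^ 4 • c₄) + (35 : ℤ) • c₀ := by
      module
    rw [e]
    exact S.add_mem (S.add_mem (S.sub_mem (S.add_mem (S.zsmul_mem v1 _) (S.zsmul_mem v2 _))
      (S.zsmul_mem v3 _)) (S.zsmul_mem v4 _)) (S.zsmul_mem h0 _)
  · apply mem_of_nsmul hE hp24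
    have e : (24 : ℕ) • c₃ = (36 : ℤ) • (c₀ + 1 • c₁ + 1 ^ 2 • c₂ + 1 ^ 3 • c₃ + 1 ^ 4 • c₄)
        - (48 : ℤ) • (c₀ + 2 • c₁ + 2 ^ 2 • c₂ + 2 ^ 3 • c₃ + 2 ^ 4 • c₄)
        + (28 : ℤ) • (c₀ + 3 • c₁ + 3 ^ 2 • c₂ + 3 ^ 3 • c₃ + 3 ^ 4 • c₄)
        - (6 : ℤ) • (c₀ + 4 • c₁ + 4 ^ 2 • c₂ + 4 ^ 3 • c₃ + 4 ^ 4 • c₄) - (10 : ℤ) • c₀ := by
      module
    rw [e]
    exact S.sub_mem (S.sub_mem (S.add_mem (S.sub_mem (S.zsmul_mem v1 _) (S.zsmul_mem v2 _))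
      (S.zsmul_mem v3 _)) (S.zsmul_mem v4 _)) (S.zsmul_mem h0 _)
  · apply mem_of_nsmul hE hp24
    have e : (24 : ℕ) • c₄ = (-4 : ℤ) • (c₀ + 1 • c₁ + 1 ^ 2 • c₂ + 1 ^ 3 • c₃ + 1 ^ 4 • c₄)
        + (6 : ℤ) • (c₀ + 2 • c₁ + 2 ^ 2 • c₂ + 2 ^ 3 • c₃ + 2 ^ 4 • c₄)
        - (4 : ℤ) • (c₀ + 3 • c₁ + 3 ^ 2 • c₂ + 3 ^ 3 • c₃ + 3 ^ 4 • c₄)
        + (1 : ℤ) • (c₀ + 4 • c₁ + 4 ^ 2 • c₂ + 4 ^ 3 • c₃ + 4 ^ 4 • c₄) + (1 : ℤ) • c₀ := by
      module
    rw [e]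
    exact S.add_mem (S.add_mem (S.sub_mem (S.add_mem (S.zsmul_mem v1 _) (S.zsmul_mem v2 _))
      (S.zsmul_mem v3 _)) (S.zsmul_mem v4 _)) (S.zsmul_mem h0 _)

end Div

section Prod

variable {E : Type*} [Ring E]

/-- The product identity. -/
theorem prod_identity {a b z c d e : E} (h2 : ∀ x : E, x + x = 0 → x = 0) (haa : a * a = 0) (hbb : b * b = 0)
    (hzz : z * z = 0) (haba : a * b * a = 0) (hbab : b * a * b = 0) (haza : a * z * a = 0)
    (hzaz : z * a * z = 0) (hbzb : b * z * b = 0) (hzbz : z * b * z = 0)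
    (hc : c + c = a * b - b * a) (hd : d + d = a * z - z * a) (he : e + e = b * z - z * b)
    (hdd : d * d = 0) (hde : d * e = 0) (hed : e * d = 0) (hee : e * e = 0)
    (hx : (a + b + z) * (a + b + z) = 0) :
    (1 + a) * (1 + b) * (1 - c) * (1 + z) * (1 - d) * (1 - e) = 1 + (a + b + z) := by
  have hac : a * c = 0 := h2 _ (by
    linear_combination (norm := noncomm_ring) a * hc + haa * b - haba)
  have hbc : b * c = 0 := h2 _ (by
    linear_combination (norm := noncomm_ring) b * hc + hbab - hbb * a)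
  set s := a * b - c with hs
  have h1 : (1 + a) * (1 + b) * (1 - c) = 1 + a + b + s := by
    rw [hs]
    linear_combination (norm := noncomm_ring) (-1 : E) * hac - hbc - a * hbc
  have hs2 : s + s = a * b + b * a := by
    rw [hs]
    linear_combination (norm := noncomm_ring) (-1 : E) * hc
  have hyz : (a * b + b * a) * z = 0 := by
    linear_combination (norm := noncomm_ring) hx * z - haa * z - hbb * z - hzz * z - hzaz - hzbz
      - a * hzz - b * hzz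
  have hsz : s * z = 0 := h2 _ (by
    linear_combination (norm := noncomm_ring) hs2 * z + hyz)
  have hsde : s + a * z + b * z = d + e := by
    have h3 : (s + a * z + b * z) - (d + e) = 0 := h2 _ (by
      linear_combination (norm := noncomm_ring) hs2 + hx - haa - hbb - hzz - hd - he)
    exact sub_eq_zero.1 h3
  have h3 : (1 + a) * (1 + b) * (1 - c) * (1 + z) = 1 + (a + b + z) + (d + e) := by
    rw [h1]
    linear_combination (norm := noncomm_ring) hsz + hsde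
  have had : a * d = 0 := h2 _ (by
    linear_combination (norm := noncomm_ring) a * hd + haa * z - haza)
  have hbe : b * e = 0 := h2 _ (by
    linear_combination (norm := noncomm_ring) b * he + hbb * z - hbzb)
  have hzd : z * d = 0 := h2 _ (by
    linear_combination (norm := noncomm_ring) z * hd + hzaz - hzz * a)
  have hze : z * e = 0 := h2 _ (by
    linear_combination (norm := noncomm_ring) z * he + hzbz - hzz * b)
  have h4 : a * e + b * d = 0 := h2 _ (by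
    have h5 : a * b * z + a * z * b = 0 := by
      linear_combination (norm := noncomm_ring) a * hx - a * haa - a * hbb - a * hzz - haa * b - haba
        - haa * z - haza
    have h6 : b * a * z + b * z * a = 0 := by
      linear_combination (norm := noncomm_ring) b * hx - b * haa - b * hbb - b * hzz - hbab - hbb * a
        - hbb * z - hbzb
    linear_combination (norm := noncomm_ring) a * he + b * hd + 2 * hyz - h5 - h6)
  rw [h3]
  linear_combination (norm := noncomm_ring) (-1 : E) * had - hbe - hzd - hze - h4 - hdd - hed - hee - hde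
    + (1 + (a + b + z) + (d + e)) * hde

end Prod

end Cfsg.Agent.H26.Limit
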