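import Cfsg.Agent.H26.LimitBasic
import Cfsg.Agent.H26.LimitRing

/-!
# The twist by `1 + m X`, `m ^ 2 = 0`
-/

set_option autoImplicit false

namespace Cfsg.Agent.H26.Limit

open Polynomial

variable {E : Type*} [Ring E]

/-- `1 + m X`. -/
noncomputable def up (m : E) : E[X] := 1 + monomial 1 m

/-- `1 - m X`. -/
noncomputable def dn (m : E) : E[X] := 1 - monomial 1 m

theorem up_mul_dn {m : E} (hm : m * m = 0) : up m * dn m = 1 := by
  rw [up, dn]
  have : (monomial 1 m : E[X]) * monomial 1 m = 0 := by rw [monomial_mul_monomial, hm, map_zero]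
  linear_combination (norm := noncomm_ring) (-1 : E[X]) * this

theorem dn_mul_up {m : E} (hm : m * m = 0) : dn m * up m = 1 := by
  rw [up, dn]
  have : (monomial 1 m : E[X]) * monomial 1 m = 0 := by rw [monomial_mul_monomial, hm, map_zero]
  linear_combination (norm := noncomm_ring) (-1 : E[X]) * this

theorem natDegree_up (m : E) : (up m).natDegree ≤ 1 := by
  refine (natDegree_add_le _ _).trans (max_le ?_ (natDegree_monomial_le _))
  simp

theorem natDegree_dn (m : E) : (dn m).natDegree ≤ 1 := by
  refine (natDegree_sub_le _ _).trans (max_le ?_ (natDegree_monomial_le _))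
  simp

/-- Polynomials with coefficients in `S` are sums of monomials. -/
theorem mem_of_monomial {S : AddSubgroup E} (P : AddSubgroup E[X])
    (h : ∀ k, ∀ a ∈ S, monomial k a ∈ P) {f : E[X]} (hf : ∀ k, f.coeff k ∈ S) : f ∈ P := by
  rw [f.as_sum_support]
  exact P.sum_mem fun i _ => h i _ (hf i)

/-- the polynomials with coefficients in `S` -/
def polys (S : AddSubgroup E) : AddSubgroup E[X] where
  carrier := {f | ∀ k, f.coeff k ∈ S}
  zero_mem' := by intro k; simp
  add_mem' := by
    intro f g hf hg k
    rw [coeff_add]; exact S.add_mem (hf k) (hg k)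
  neg_mem' := by
    intro f hf k
    rw [coeff_neg]; exact S.neg_mem (hf k)

theorem mem_polys {S : AddSubgroup E} {f : E[X]} : f ∈ polys S ↔ ∀ k, f.coeff k ∈ S := Iff.rfl

theorem monomial_mem_polys {S : AddSubgroup E} {k : ℕ} {a : E} (ha : a ∈ S) : monomial k a ∈ polys S := by
  intro j
  rw [coeff_monomial]
  split_ifs
  · exact ha
  · exact S.zero_mem

theorem theta_monomial (m a : E) (k : ℕ) : up m * monomial k a * dn m =
    monomial k a + monomial (k + 1) (m * a - a * m) - monomial (k + 2) (m * a * m) := by
  have h1 : (monomial 1 m : E[X]) * monomial k a = monomial (k + 1) (m * a) := by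
    rw [monomial_mul_monomial, add_comm]
  have h2 : (monomial k a : E[X]) * monomial 1 m = monomial (k + 1) (a * m) := by
    rw [monomial_mul_monomial]
  have h3 : (monomial (k + 1) (m * a) : E[X]) * monomial 1 m = monomial (k + 2) (m * a * m) := by
    rw [monomial_mul_monomial]
  rw [up, dn, map_sub]
  calc (1 + monomial 1 m) * monomial k a * (1 - monomial 1 m)
      = monomial k a + monomial 1 m * monomial k a - monomial k a * monomial 1 m
        - (monomial 1 m * monomial k a) * monomial 1 m := by noncomm_ring
    _ = _ := by rw [h1, h2, h3]; abel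

/-- All coefficients of `θ f` lie in a subgroup containing `S`, `[m, S]` and `m S m`. -/
theorem coeff_theta_mem {m : E} {S Q : AddSubgroup E} (h0 : ∀ a ∈ S, a ∈ Q)
    (h1 : ∀ a ∈ S, m * a - a * m ∈ Q) (h2 : ∀ a ∈ S, m * a * m ∈ Q) {f : E[X]} (hf : f ∈ polys S) (k : ℕ) :
    (up m * f * dn m).coeff k ∈ Q := by
  let P : AddSubgroup E[X] :=
    { carrier := {f | up m * f * dn m ∈ polys Q}
      zero_mem' := by
        change up m * 0 * dn m ∈ polys Q
        rw [mul_zero, zero_mul]; exact zero_mem _
      add_mem' := by
        intro f g hf hg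
        change up m * (f + g) * dn m ∈ polys Q
        rw [mul_add, add_mul]; exact add_mem hf hg
      neg_mem' := by
        intro f hf
        change up m * (-f) * dn m ∈ polys Q
        rw [mul_neg, neg_mul]; exact neg_mem hf }
  have : f ∈ P := by
    refine mem_of_monomial P (fun k a ha => ?_) hf
    change up m * _ * dn m ∈ polys Q
    rw [theta_monomial]
    exact sub_mem (add_mem (monomial_mem_polys (h0 a ha)) (monomial_mem_polys (h1 a ha)))
      (monomial_mem_polys (h2 a ha))
  exact this k

/-- `[m, x]` is a leading coefficient. -/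
theorem comm_mem_lead {m : E} (hm : m * m = 0) {S : AddSubgroup E} {x : E} (hx : x ∈ lead (up m) (dn m) S) :
    m * x - x * m ∈ lead (up m) (dn m) S := by
  obtain ⟨f, hf, k, hk, rfl⟩ := hx
  set F := up m * f * dn m with hF
  have hup : derivative (up m) = C m := by
    rw [up, derivative_add, derivative_one, zero_add, derivative_monomial]; simp
  have hdn : derivative (dn m) = - C m := by
    rw [dn, derivative_sub, derivative_one, zero_sub, derivative_monomial]; simp
  have hCm : C m * up m = C m := by
    rw [up, mul_add, mul_one, C_mul_monomial, hm, map_zero, add_zero]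
  have hmC : dn m * C m = C m := by
    rw [dn, sub_mul, one_mul, monomial_mul_C, hm, map_zero, sub_zero]
  have key : up m * derivative f * dn m = derivative F - (C m * F - F * C m) := by
    rw [hF, derivative_mul, derivative_mul, hup, hdn]
    have e1 : C m * (up m * f * dn m) = C m * f * dn m := by
      rw [← mul_assoc, ← mul_assoc, hCm]
    have e2 : up m * f * dn m * C m = up m * f * C m := by
      rw [mul_assoc, hmC]
    rw [e1, e2]; noncomm_ring
  have hder : ∀ j, k ≤ j → (derivative F).coeff j = 0 := by
    intro j hj
    rw [coeff_derivative, hk (j + 1) (by omega), zero_mul]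
  have hcomm : ∀ j, (C m * F - F * C m).coeff j = m * F.coeff j - F.coeff j * m := by
    intro j
    rw [coeff_sub, coeff_C_mul, coeff_mul_C]
  have h1 : -(m * F.coeff k - F.coeff k * m) ∈ lead (up m) (dn m) S := by
    refine ⟨derivative f, fun j => ?_, k, fun j hj => ?_, ?_⟩
    · rw [coeff_derivative]
      have : f.coeff (j + 1) * ((j : E) + 1) = (j + 1) • f.coeff (j + 1) := by
        rw [nsmul_eq_mul, Nat.cast_add, Nat.cast_one]
        exact ((Nat.cast_commute j _).add_left (Commute.one_left _)).eq.symm
      rw [this]
      exact S.nsmul_mem (hf _) _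
    · rw [key, coeff_sub, hder j hj.le, hcomm, hk j hj]; simp
    · rw [key, coeff_sub, hder k le_rfl, hcomm, zero_sub]
  have h2 := neg_mem h1
  rwa [neg_neg] at h2

/-- Conjugation by `1 + m`. -/
theorem conj_up_mem_lead {p : ℕ} [hpf : Fact p.Prime] (hp2 : p ≠ 2) (hE : ∀ x : E, p • x = 0) {m : E}
    (hm : m * m = 0) {S : AddSubgroup E} {x : E} (hx : x ∈ lead (up m) (dn m) S) :
    (1 + m) * x * (1 - m) ∈ lead (up m) (dn m) S := by
  have h1 := comm_mem_lead hm hx
  have h2 := comm_mem_lead hm h1
  have h3 : (2 : ℕ) • (m * x * m) ∈ lead (up m) (dn m) S := by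
    have e : (2 : ℕ) • (m * x * m) = -(m * (m * x - x * m) - (m * x - x * m) * m) := by
      rw [two_nsmul]
      linear_combination (norm := noncomm_ring) hm * x + x * hm
    rw [e]; exact neg_mem h2
  have h4 := mem_of_nsmul hE (coprime_two hp2) h3
  have e : (1 + m) * x * (1 - m) = x + (m * x - x * m) - m * x * m := by noncomm_ring
  rw [e]
  exact sub_mem (add_mem hx h1) h4

/-- Conjugation by units `g` for which `g(X) a g(X)⁻¹` has coefficients in `S`. -/
theorem conj_mem_lead {m : E} (hm : m * m = 0) {S : AddSubgroup E} {g g' : E}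
    (h : ∀ a ∈ S, dn m * C g * up m * C a * dn m * C g' * up m ∈ polys S) {x : E}
    (hx : x ∈ lead (up m) (dn m) S) : g * x * g' ∈ lead (up m) (dn m) S := by
  obtain ⟨f, hf, k, hk, rfl⟩ := hx
  set F := up m * f * dn m with hF
  have h1 : up m * (dn m * C g * up m * f * dn m * C g' * up m) * dn m = C g * F * C g' := by
    rw [hF]
    calc up m * (dn m * C g * up m * f * dn m * C g' * up m) * dn m
        = (up m * dn m) * C g * up m * f * dn m * C g' * (up m * dn m) := by simp only [mul_assoc]
      _ = _ := by rw [up_mul_dn hm, one_mul, mul_one]; simp only [mul_assoc]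
  have h2 : dn m * C g * up m * f * dn m * C g' * up m ∈ polys S := by
    let P : AddSubgroup E[X] :=
      { carrier := {f | dn m * C g * up m * f * dn m * C g' * up m ∈ polys S}
        zero_mem' := by
          change dn m * C g * up m * 0 * dn m * C g' * up m ∈ polys S
          simp only [mul_zero, zero_mul]; exact zero_mem _
        add_mem' := by
          intro f g₁ hf hg₁
          change dn m * C g * up m * (f + g₁) * dn m * C g' * up m ∈ polys S
          simp only [mul_add, add_mul]
          exact (by simpa only [mul_add, add_mul] using add_mem hf hg₁)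
        neg_mem' := by
          intro f hf
          change dn m * C g * up m * (-f) * dn m * C g' * up m ∈ polys S
          simp only [mul_neg, neg_mul]; exact neg_mem hf }
    refine mem_of_monomial P (fun k a ha => ?_) hf
    change dn m * C g * up m * _ * dn m * C g' * up m ∈ polys S
    rw [← C_mul_X_pow_eq_monomial]
    have h3 : dn m * C g * up m * (C a * X ^ k) * dn m * C g' * up m =
        (dn m * C g * up m * C a * dn m * C g' * up m) * X ^ k := by
      simp only [mul_assoc, X_pow_mul]
    rw [h3]
    intro j
    rw [coeff_mul_X_pow']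
    split_ifs
    · exact h a ha _
    · exact S.zero_mem
  refine ⟨_, h2, k, fun j hj => ?_, ?_⟩
  · rw [h1, coeff_mul_C, coeff_C_mul, hk j hj]; simp
  · rw [h1, coeff_mul_C, coeff_C_mul]

end Cfsg.Agent.H26.Limit
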