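import Cfsg.Agent.H26.LimitLinear
import Cfsg.Prelude.Def_Transfer

/-!
# From subgroups normalising an elementary abelian subgroup to representations
-/

set_option autoImplicit false

universe u

namespace Cfsg.Agent.H26.Limit

open Subgroup
open scoped commutatorElement

section Rep

variable {Ω : Type u} [Group Ω] {p : ℕ} [hpf : Fact p.Prime]

omit [Group Ω] in
theorem exists_rep_aux {H V' : Type*} [Group H] [CommGroup V'] [Module (ZMod p) (Additive V')]
    (φ : H →* MulAut V') : ∃ ρ : H →* Module.End (ZMod p) (Additive V'),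
      ∀ g w, Additive.toMul (ρ g w) = φ g (Additive.toMul w) := by
  refine ⟨
    { toFun := fun g => (MonoidHom.toAdditive (φ g).toMonoidHom).toZModLinearMap p
      map_one' := ?_
      map_mul' := ?_ }, ?_⟩
  · refine LinearMap.ext fun w => ?_
    apply Additive.toMul.injective
    change φ 1 (Additive.toMul w) = Additive.toMul w
    rw [map_one, MulAut.one_apply]
  · intro g h
    refine LinearMap.ext fun w => ?_
    apply Additive.toMul.injective
    change φ (g * h) (Additive.toMul w) = φ g (φ h (Additive.toMul w))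
    rw [map_mul, MulAut.mul_apply]
  · intro g w; rfl

theorem exists_rep (V G : Subgroup Ω) (hV : Cfsg.IsElementaryAbelian p V)
    (hGV : G ≤ normalizer (V : Set Ω)) :
    ∃ (W : Type u) (_ : AddCommGroup W) (_ : Module (ZMod p) W) (e : W ≃ V)
      (ρ : G →* Module.End (ZMod p) W), (∀ x y, (e (x + y) : Ω) = e x * e y) ∧
      ∀ g w, (e (ρ g w) : Ω) = g * e w * (g : Ω)⁻¹ := by
  let _ : CommGroup V := { (inferInstance : Group V) with mul_comm := fun x y => hV.1.1.1 x y }
  let _ : Module (ZMod p) (Additive V) := AddCommGroup.zmodModule (fun x => by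
    apply Additive.toMul.injective
    apply Subtype.ext
    change ((Additive.toMul (p • x) : V) : Ω) = 1
    rw [toMul_nsmul]
    exact hV.2 _ (Additive.toMul x).2)
  let φ : G →* MulAut V := V.normalizerMonoidHom.comp (Subgroup.inclusion hGV)
  obtain ⟨ρ, hρ⟩ := exists_rep_aux (p := p) φ
  refine ⟨Additive V, inferInstance, inferInstance, Additive.toMul, ρ, ?_, ?_⟩
  · intro x y; rfl
  · intro g w
    have h1 := congrArg Subtype.val (hρ g w)
    exact h1

variable {V G : Subgroup Ω} {W : Type u} [AddCommGroup W] [Module (ZMod p) W] (e : W ≃ V)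
  (ρ : G →* Module.End (ZMod p) W) (he : ∀ x y, (e (x + y) : Ω) = e x * e y)
  (hρ : ∀ g w, (e (ρ g w) : Ω) = g * e w * (g : Ω)⁻¹)

include he

theorem e_sub (x y : W) : (e (x - y) : Ω) = e x * (e y : Ω)⁻¹ := by
  rw [eq_mul_inv_iff_mul_eq, ← he, sub_add_cancel]

theorem e_zero : (e 0 : Ω) = 1 := by
  have := e_sub e he 0 0
  rwa [sub_self, mul_inv_cancel] at this

include hρ

omit he in
theorem rep_injective (hf : G ⊓ centralizer (V : Set Ω) = ⊥) : Function.Injective ρ := by
  rw [injective_iff_map_eq_one]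
  intro g hg
  apply Subtype.ext
  have h1 : (g : Ω) ∈ G ⊓ centralizer (V : Set Ω) := by
    refine ⟨g.2, ?_⟩
    change (g : Ω) ∈ centralizer (V : Set Ω)
    rw [mem_centralizer_iff]
    intro v hv
    have h2 := hρ g (e.symm ⟨v, hv⟩)
    rw [hg, Module.End.one_apply, Equiv.apply_symm_apply] at h2
    have h3 : v = g * v * (g : Ω)⁻¹ := h2
    nth_rewrite 1 [h3]
    group
  rw [hf, mem_bot] at h1
  exact h1

theorem quad_iff {A : Subgroup G} : Quad ρ A ↔ ⁅⁅V, A.map G.subtype⁆, A.map G.subtype⁆ = ⊥ := by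
  rw [Subgroup.commutator_eq_bot_iff_le_centralizer, Subgroup.commutator_le]
  have key : ∀ a b : G, (ρ a - 1) * (ρ b - 1) = 0 ↔ ∀ v ∈ V, (a : Ω) * ⁅(b : Ω), v⁆ = ⁅(b : Ω), v⁆ * a := by
    intro a b
    have h1 : ∀ w, (e ((ρ b - 1) w) : Ω) = ⁅(b : Ω), (e w : Ω)⁆ := by
      intro w
      rw [LinearMap.sub_apply, Module.End.one_apply, e_sub e he, hρ, commutatorElement_def]
    constructor
    · intro h v hv
      have h2 : ρ a ((ρ b - 1) (e.symm ⟨v, hv⟩)) = (ρ b - 1) (e.symm ⟨v, hv⟩) := by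
        have h3 : ((ρ a - 1) * (ρ b - 1)) (e.symm ⟨v, hv⟩) = 0 := by rw [h]; rfl
        rw [Module.End.mul_apply, LinearMap.sub_apply, Module.End.one_apply] at h3
        exact sub_eq_zero.1 h3
      have h3 := hρ a ((ρ b - 1) (e.symm ⟨v, hv⟩))
      rw [h2, h1, Equiv.apply_symm_apply] at h3
      exact (eq_mul_inv_iff_mul_eq.1 h3).symm
    · intro h
      ext w
      rw [Module.End.mul_apply, LinearMap.zero_apply, LinearMap.sub_apply, Module.End.one_apply, sub_eq_zero]
      apply e.injective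
      apply Subtype.ext
      rw [hρ, h1, h _ (e w).2, mul_inv_cancel_right]
  have hcomm : ∀ (x v b : Ω), x * ⁅b, v⁆ = ⁅b, v⁆ * x ↔ x * ⁅v, b⁆ = ⁅v, b⁆ * x := by
    intro x v b
    rw [← commutatorElement_inv v b]
    constructor
    · intro h
      have : Commute x (⁅v, b⁆)⁻¹ := h
      exact (Commute.inv_right_iff.1 this).eq
    · intro h
      have : Commute x ⁅v, b⁆ := h
      exact (Commute.inv_right_iff.2 this).eq
  constructor
  · rintro h v hv _ ⟨b, hb, rfl⟩
    rw [mem_centralizer_iff]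
    rintro _ ⟨a, ha, rfl⟩
    exact (hcomm _ _ _).1 ((key a b).1 (h a ha b hb) v hv)
  · intro h a ha b hb
    rw [key]
    intro v hv
    have h1 := h v hv (b : Ω) ⟨b, hb, rfl⟩
    exact (hcomm _ _ _).2 ((mem_centralizer_iff.1 h1) a ⟨a, ha, rfl⟩)

omit he in
theorem card_fx {A : Subgroup G} : Nat.card (fx ρ A) = Nat.card (V ⊓ centralizer (A.map G.subtype : Set Ω) : Subgroup Ω) := by
  refine Nat.card_congr (Equiv.ofBijective (fun w : fx ρ A => (⟨(e w.1 : Ω), (e w.1).2, ?_⟩ :
    (V ⊓ centralizer (A.map G.subtype : Set Ω) : Subgroup Ω))) ⟨?_, ?_⟩)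
  · change (e w.1 : Ω) ∈ centralizer (A.map G.subtype : Set Ω)
    rw [mem_centralizer_iff]
    rintro _ ⟨a, ha, rfl⟩
    have h1 := hρ a w.1
    rw [w.2 a ha] at h1
    exact (eq_mul_inv_iff_mul_eq.1 h1).symm
  · intro x y hxy
    have h1 : (e x.1 : Ω) = e y.1 := by
      have := congrArg Subtype.val hxy
      exact this
    exact Subtype.ext (e.injective (Subtype.ext h1))
  · rintro ⟨v, hv, hvc⟩
    refine ⟨⟨e.symm ⟨v, hv⟩, ?_⟩, ?_⟩
    · intro a ha
      apply e.injective
      apply Subtype.ext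
      rw [hρ, Equiv.apply_symm_apply]
      have h1 := (mem_centralizer_iff.1 hvc) a ⟨a, ha, rfl⟩
      change (a : Ω) * v * (a : Ω)⁻¹ = v
      rw [h1, mul_inv_cancel_right]
    · apply Subtype.ext
      change (e (e.symm ⟨v, hv⟩) : Ω) = v
      rw [Equiv.apply_symm_apply]

end Rep

end Cfsg.Agent.H26.Limit
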